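import Cfsg.Agent.H663.Hol.Odd

/-!
# The centric subgroups of `Hol(C₈)` with an automorphism of odd order (helper663)
-/

set_option autoImplicit false
set_option maxRecDepth 20000

namespace Cfsg.Agent.H663.Hol

open M Act

/-- a subgroup given by a Boolean predicate -/
def subOf (p : M → Bool) (h1 : p 1 = true) (h2 : ∀ x y, p x = true → p y = true → p (x * y) = true)
    (h3 : ∀ x, p x = true → p x⁻¹ = true) : Subgroup M where
  carrier := {x | p x = true}
  one_mem' := h1
  mul_mem' := fun {a b} ha hb => h2 a b ha hb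
  inv_mem' := fun {a} ha => h3 a ha

def pV (x : M) : Bool := x.i == 0 || x.i == 4
def pV' (x : M) : Bool := if x.a then (x.i == 2 || x.i == 6) else (x.i == 0 || x.i == 4)
def pR (x : M) : Bool := if x.a then x.i.val % 2 == 1 else x.i.val % 2 == 0

/-- `⟨r⁴, w, d⟩` -/
def VM : Subgroup M := subOf pV (by decide) (by decide) (by decide)
/-- `⟨r⁴, r²w, d⟩` -/
def VM' : Subgroup M := subOf pV' (by decide) (by decide) (by decide)
/-- `⟨r², rw, d⟩` -/
def RM : Subgroup M := subOf pR (by decide) (by decide) (by decide)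

theorem mem_VM (x : M) : x ∈ VM ↔ pV x = true := Iff.rfl
theorem mem_VM' (x : M) : x ∈ VM' ↔ pV' x = true := Iff.rfl
theorem mem_RM (x : M) : x ∈ RM ↔ pR x = true := Iff.rfl

/-- exactly the subgroups to be considered -/
theorem Act.classify {K : Subgroup M} (hC : ∀ z, (∀ x ∈ K, x * z = z * x) → z ∈ K) {f : M → M} (h : Act K f) :
    (∀ y ∈ K, f y = y) ∨ K = VM ∨ K = VM' ∨ K = RM := by
  by_cases h8 : ∃ x ∈ K, x ^ 4 ≠ 1
  · obtain ⟨x, hx, hx4⟩ := h8
    exact Or.inl (h.oct hx hx4)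
  push Not at h8
  by_cases ha : ∀ x ∈ K, x.a = false
  · exact Or.inl (h.caseA1 h8 ha (hC _ fun x hx => (g3 x (ha x hx) (h8 x hx)).1)
      (hC _ fun x hx => (g3 x (ha x hx) (h8 x hx)).2))
  push Not at ha
  obtain ⟨y, hy, hya⟩ := ha
  have hya : y.a = true := by simpa using hya
  have hz : r ^ 4 ∈ K := hC _ fun x _ => g2 x
  by_cases hyd : y * d = d * y
  · have hd : d ∈ K := hC _ fun x hx => t1 y hya hyd x (fun _ => h8 x hx)
      (fun _ => h8 _ (K.mul_mem (K.inv_mem hy) hx))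
    by_cases hr : r ^ 2 ∈ K
    · exact Or.inl (h.caseT h8 hy hya hyd hr hd)
    have hr' : (r ^ 2)⁻¹ ∉ K := fun e => hr (by simpa using K.inv_mem e)
    have h1 : ∀ x : M, x.a = false → x ^ 4 = 1 → x * d ≠ r ^ 2 → x * d ≠ (r ^ 2)⁻¹ →
      x ≠ r ^ 2 → x ≠ (r ^ 2)⁻¹ → x = 1 ∨ x = r ^ 4 ∨ x = d ∨ x = d * r ^ 4 := by decide
    have hA : ∀ x ∈ K, x.a = false → x = 1 ∨ x = r ^ 4 ∨ x = d ∨ x = d * r ^ 4 := by
      intro x hx hxa
      refine h1 x hxa (h8 x hx) (fun e => hr ?_) (fun e => hr' ?_) (fun e => hr (e ▸ hx)) (fun e => hr' (e ▸ hx))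
      · rw [← e]
        exact K.mul_mem hx hd
      · rw [← e]
        exact K.mul_mem hx hd
    have hA' : ∀ x : M, (x = 1 ∨ x = r ^ 4 ∨ x = d ∨ x = d * r ^ 4) → x ∈ K := by
      rintro x (rfl | rfl | rfl | rfl)
      · exact K.one_mem
      · exact hz
      · exact hd
      · exact K.mul_mem hd hz
    have h2 : ∀ y : M, y.a = true → y * d = d * y → pV y = true ∨ pV' y = true := by decide
    have hb : ∀ x : M, x.a ≠ false → x.a = true := fun x hx => by simpa using hx
    rcases h2 y hya hyd with hyp | hyp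
    · right; left
      have h3 : ∀ x : M, x.a = false → (pV x = true ↔ x = 1 ∨ x = r ^ 4 ∨ x = d ∨ x = d * r ^ 4) := by decide
      have h4 : ∀ y : M, y.a = true → pV y = true → ∀ x : M, x.a = true →
        (pV x = true ↔ pV (y⁻¹ * x) = true) := by decide
      ext x
      rw [mem_VM]
      by_cases hxa : x.a = false
      · rw [h3 x hxa]
        exact ⟨fun hx => hA x hx hxa, hA' x⟩
      · rw [h4 y hya hyp x (hb x hxa), h3 _ (f7 y x hya (hb x hxa))]
        exact ⟨fun hx => hA _ (K.mul_mem (K.inv_mem hy) hx) (f7 y x hya (hb x hxa)), fun hx =>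
          (Subgroup.mul_mem_cancel_left K (K.inv_mem hy)).1 (hA' _ hx)⟩
    · right; right; left
      have h3 : ∀ x : M, x.a = false → (pV' x = true ↔ x = 1 ∨ x = r ^ 4 ∨ x = d ∨ x = d * r ^ 4) := by decide
      have h4 : ∀ y : M, y.a = true → pV' y = true → ∀ x : M, x.a = true →
        (pV' x = true ↔ pV' (y⁻¹ * x) = true) := by decide
      ext x
      rw [mem_VM']
      by_cases hxa : x.a = false
      · rw [h3 x hxa]
        exact ⟨fun hx => hA x hx hxa, hA' x⟩
      · rw [h4 y hya hyp x (hb x hxa), h3 _ (f7 y x hya (hb x hxa))]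
        exact ⟨fun hx => hA _ (K.mul_mem (K.inv_mem hy) hx) (f7 y x hya (hb x hxa)), fun hx =>
          (Subgroup.mul_mem_cancel_left K (K.inv_mem hy)).1 (hA' _ hx)⟩
  · have hyc : y * (r ^ 2 * d) = (r ^ 2 * d) * y := by
      have h5 : ∀ y : M, y.a = true → y * d ≠ d * y → y * (r ^ 2 * d) = (r ^ 2 * d) * y := by decide
      exact h5 y hya hyd
    have hc : r ^ 2 * d ∈ K := by
      refine hC _ fun x hx => ?_
      have h6 : ∀ y : M, y.a = true → y * d ≠ d * y → ∀ x : M, (x.a = false → x ^ 4 = 1) →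
        (x.a = true → (y⁻¹ * x) ^ 4 = 1) → x * (r ^ 2 * d) = (r ^ 2 * d) * x := by decide
      exact h6 y hya hyd x (fun _ => h8 x hx) (fun _ => h8 _ (K.mul_mem (K.inv_mem hy) hx))
    by_cases hr : r ^ 2 ∈ K
    · right; right; right
      have hd : d ∈ K := (Subgroup.mul_mem_cancel_left K hr).1 hc
      have h3 : ∀ x : M, x.a = false → (pR x = true ↔ x ^ 4 = 1) := by decide
      have h4 : ∀ y : M, y.a = true → y * d ≠ d * y → ∀ x : M, x.a = true →
        (pR x = true ↔ (y⁻¹ * x) ^ 4 = 1) := by decide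
      have hb : ∀ x : M, x.a ≠ false → x.a = true := fun x hx => by simpa using hx
      have hA : ∀ x : M, x.a = false → x ^ 4 = 1 → x ∈ K := by
        intro x hxa hx4
        rcases a1 x hxa hx4 with e | e | e | e | e | e | e | e
        · rw [e]; exact hr
        · rw [e]; exact K.inv_mem hr
        · rw [e]; exact K.one_mem
        · rw [e]; exact hz
        · rw [e]; exact hd
        · rw [e]; exact K.mul_mem hd hz
        · rw [e]; exact hc
        · rw [e]; exact K.mul_mem (K.inv_mem hr) hd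
      ext x
      rw [mem_RM]
      by_cases hxa : x.a = false
      · rw [h3 x hxa]
        exact ⟨fun hx => h8 x hx, hA x hxa⟩
      · rw [h4 y hya hyd x (hb x hxa)]
        exact ⟨fun hx => h8 _ (K.mul_mem (K.inv_mem hy) hx), fun hx =>
          (Subgroup.mul_mem_cancel_left K (K.inv_mem hy)).1 (hA _ (f7 y x hya (hb x hxa)) hx)⟩
    · left
      have h7 : ∀ y : M, y.a = true → y * (r ^ 2 * d) = (r ^ 2 * d) * y → y ^ 2 = 1 ∨
        ((y * (r ^ 2 * d)) ^ 2 = 1 ∧ (y * (r ^ 2 * d)).a = true ∧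
          (y * (r ^ 2 * d)) * (r ^ 2 * d) = (r ^ 2 * d) * (y * (r ^ 2 * d))) := by decide
      rcases h7 y hya hyc with hy2 | ⟨hy2, hy3, hy4⟩
      · exact h.caseA2 h8 hy hya hyc hy2 hr hc
      · exact h.caseA2 h8 (K.mul_mem hy hc) hy3 hy4 hy2 hr hc

end Cfsg.Agent.H663.Hol
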