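import Cfsg.Agent.H663.Hol.Model
import Cfsg.Agent.H663.Hol.Defs

/-!
# The embedding of the model (helper663)
-/

set_option autoImplicit false
set_option maxRecDepth 20000

namespace Cfsg.Agent.H663.Hol

variable {G : Type*} [Group G] {r w d : G}

/-- `g` or `1` -/
def bp (g : G) (a : Bool) : G := if a then g else 1

theorem bp_mul {g : G} (h : g ^ 2 = 1) (a b : Bool) : bp g a * bp g b = bp g (xor a b) := by
  rw [pow_two] at h
  cases a <;> cases b <;> simp [bp, h]

def jf (r w d : G) (x : M) : G := r ^ (x.i : ℕ) * bp w x.a * bp d x.b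

theorem conj_pow_w (h : Rel r w d) (n : ℕ) : w * r ^ n * w⁻¹ = (r ^ n)⁻¹ := by
  rw [← conj_pow, h.wr, inv_pow]

theorem conj_pow_d (h : Rel r w d) (n : ℕ) : d * r ^ n * d⁻¹ = r ^ (5 * n) := by
  rw [← conj_pow, h.dr, ← pow_mul]

theorem r_mod (h : Rel r w d) (n : ℕ) : r ^ (n % 8) = r ^ n := by
  have h1 := pow_mod_orderOf r n
  rwa [h.or] at h1

theorem r_add (h : Rel r w d) (i j : Fin 8) : r ^ ((i + j : Fin 8) : ℕ) = r ^ (i : ℕ) * r ^ (j : ℕ) := by
  rw [Fin.val_add, r_mod h, pow_add]

/-- moving `w ^ a * d ^ b` past a power of `r` -/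
theorem r_move (h : Rel r w d) (a b : Bool) (i : Fin 8) :
    bp w a * bp d b * r ^ (i : ℕ) = r ^ ((M.sg a b * i : Fin 8) : ℕ) * (bp w a * bp d b) := by
  have e1 : ∀ n : ℕ, w * r ^ n = (r ^ n)⁻¹ * w := by
    intro n
    rw [← conj_pow_w h n]
    group
  have e2 : ∀ n : ℕ, d * r ^ n = r ^ (5 * n) * d := by
    intro n
    rw [← conj_pow_d h n]
    group
  have e3 : ∀ n : ℕ, (r ^ n)⁻¹ = r ^ (7 * n) := by
    intro n
    rw [inv_eq_iff_mul_eq_one, ← pow_add, show n + 7 * n = 8 * n by ring, pow_mul, ← h.or, pow_orderOf_eq_one,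
      one_pow]
  cases a <;> cases b
  · simp [bp, M.sg]
  · simp only [bp, M.sg, if_true, if_false, Bool.false_eq_true, one_mul, Fin.val_mul]
    rw [r_mod h, e2]
    rfl
  · simp only [bp, M.sg, if_true, if_false, Bool.false_eq_true, mul_one, Fin.val_mul]
    rw [r_mod h, e1, e3]
    rfl
  · have e5 : r ^ (7 * (5 * (i : ℕ))) = r ^ (3 * (i : ℕ)) := by
      rw [← r_mod h (7 * (5 * (i : ℕ))), ← r_mod h (3 * (i : ℕ))]
      congr 1
      omega
    simp only [bp, M.sg, if_true, Fin.val_mul]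
    rw [r_mod h, mul_assoc, e2, ← mul_assoc, e1, e3, e5, mul_assoc]
    rfl

theorem jf_mul (h : Rel r w d) (x y : M) : jf r w d (x * y) = jf r w d x * jf r w d y := by
  have hcomm : ∀ a b : Bool, bp w a * bp d b = bp d b * bp w a := by
    intro a b
    cases a <;> cases b <;> simp [bp, h.wd]
  rw [M.mul_def]
  show r ^ ((x.i + M.sg x.a x.b * y.i : Fin 8) : ℕ) * bp w (xor x.a y.a) * bp d (xor x.b y.b) = _
  rw [r_add h, ← bp_mul h.ww, ← bp_mul h.dd]
  unfold jf
  have e1 := r_move h x.a x.b y.i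
  calc r ^ (x.i : ℕ) * r ^ ((M.sg x.a x.b * y.i : Fin 8) : ℕ) * (bp w x.a * bp w y.a) * (bp d x.b * bp d y.b)
      = r ^ (x.i : ℕ) * (r ^ ((M.sg x.a x.b * y.i : Fin 8) : ℕ) * (bp w x.a * (bp w y.a * bp d x.b))) * bp d y.b := by
        group
    _ = r ^ (x.i : ℕ) * (r ^ ((M.sg x.a x.b * y.i : Fin 8) : ℕ) * (bp w x.a * bp d x.b)) * bp w y.a * bp d y.b := by
        rw [hcomm y.a x.b]
        group
    _ = _ := by
        rw [← e1]
        group

/-- the homomorphism from the model -/
def jh (h : Rel r w d) : M →* G where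
  toFun := jf r w d
  map_one' := by
    show r ^ 0 * bp w false * bp d false = 1
    simp [bp]
  map_mul' := jf_mul h

theorem jh_r (h : Rel r w d) : jh h M.r = r := by
  show r ^ 1 * bp w false * bp d false = r
  simp [bp]

theorem jh_w (h : Rel r w d) : jh h M.w = w := by
  show r ^ 0 * bp w true * bp d false = w
  simp [bp]

theorem jh_d (h : Rel r w d) : jh h M.d = d := by
  show r ^ 0 * bp w false * bp d true = d
  simp [bp]

theorem jh_range (h : Rel r w d) : (jh h).range = Subgroup.closure {r, w, d} := by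
  apply le_antisymm
  · rintro _ ⟨x, rfl⟩
    have hr : r ∈ Subgroup.closure ({r, w, d} : Set G) := Subgroup.subset_closure (by simp)
    have hw : w ∈ Subgroup.closure ({r, w, d} : Set G) := Subgroup.subset_closure (by simp)
    have hd : d ∈ Subgroup.closure ({r, w, d} : Set G) := Subgroup.subset_closure (by simp)
    have hb : ∀ (g : G) (a : Bool), g ∈ Subgroup.closure ({r, w, d} : Set G) →
        bp g a ∈ Subgroup.closure ({r, w, d} : Set G) := by
      intro g a hg
      cases a
      · exact Subgroup.one_mem _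
      · exact hg
    exact Subgroup.mul_mem _ (Subgroup.mul_mem _ (Subgroup.pow_mem _ hr _) (hb w x.a hw)) (hb d x.b hd)
  · rw [Subgroup.closure_le]
    rintro x (rfl | rfl | rfl)
    · exact ⟨_, jh_r h⟩
    · exact ⟨_, jh_w h⟩
    · exact ⟨_, jh_d h⟩

theorem jh_inj (h : Rel r w d) : Function.Injective (jh h) := by
  have h1 : Nat.card (jh h).range = 32 := by rw [jh_range]; exact h.card
  have h2 : Nat.card M = 32 := by rw [Nat.card_eq_fintype_card, M.card]
  have h3 : Function.Surjective (jh h).rangeRestrict := (jh h).rangeRestrict_surjective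
  have : Finite (jh h).range := Nat.finite_of_card_ne_zero (by rw [h1]; norm_num)
  have h4 : Function.Bijective (jh h).rangeRestrict := by
    rw [Nat.bijective_iff_surjective_and_card]
    exact ⟨h3, h2.trans h1.symm⟩
  intro x y hxy
  exact h4.1 (Subtype.ext hxy)

end Cfsg.Agent.H663.Hol
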