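import Cfsg.Agent.H663.Hol.LemR
import Cfsg.Agent.H663.Hol.Emb
import Cfsg.Agent.H663.Hol.Gen

/-!
# Comparison of two saturated fusion systems on `Hol(C₈)` (helper663)
-/

set_option autoImplicit false
set_option maxRecDepth 20000

namespace Cfsg.Agent.H663.Hol

open Cfsg Cfsg.FusionSystem Cfsg.Agent.H802

variable {Ω : Type*} [Group Ω] {S : Subgroup Ω} {r w d : Ω}

/-- `K ≃ j(K)` -/
noncomputable def eK (h : Rel r w d) (K : Subgroup M) : K ≃* K.map (jh h) := K.equivMapOfInjective (jh h) (jh_inj h)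

theorem eK_coe (h : Rel r w d) (K : Subgroup M) (x : K) : (eK h K x : Ω) = jh h x := rfl

/-- the automorphisms of `K` belonging to `F` -/
noncomputable def AF (h : Rel r w d) (F : FusionSystem S) (K : Subgroup M) : Subgroup (MulAut K) :=
  (F.autGroup (K.map (jh h))).comap (MulAut.congr (eK h K)).toMonoidHom

theorem mem_AF {h : Rel r w d} {F : FusionSystem S} {K : Subgroup M} {β : MulAut K} :
    β ∈ AF h F K ↔ MulAut.congr (eK h K) β ∈ F.autGroup (K.map (jh h)) := Iff.rfl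

theorem congr_coe (h : Rel r w d) {K : Subgroup M} (β : MulAut K) (x : K) :
    ((MulAut.congr (eK h K) β (eK h K x) : K.map (jh h)) : Ω) = jh h (β x) := by
  have h1 : MulAut.congr (eK h K) β (eK h K x) = eK h K (β ((eK h K).symm (eK h K x))) := rfl
  rw [h1, MulEquiv.symm_apply_apply]
  rfl

theorem map_le (h : Rel r w d) (hS : (jh h).range = S) (K : Subgroup M) : K.map (jh h) ≤ S := by
  rw [← hS]
  exact Subgroup.map_le_range _ _

/-- every subgroup of `S` comes from `M` -/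
theorem exists_K (h : Rel r w d) (hS : (jh h).range = S) {Q : Subgroup Ω} (hQ : Q ≤ S) :
    ∃ K : Subgroup M, Q = K.map (jh h) :=
  ⟨Q.comap (jh h), (Subgroup.map_comap_eq_self (hQ.trans hS.ge)).symm⟩

/-- automorphisms induced by elements of `S` -/
theorem mem_AF_of_conj (h : Rel r w d) (hS : (jh h).range = S) {F : FusionSystem S} {K : Subgroup M} {β : MulAut K}
    (g : M) (hg : ∀ u ∈ K, fn β u = g * u * g⁻¹) : β ∈ AF h F K := by
  rw [mem_AF]
  refine autInducedBy_le_autGroup F (map_le h hS K) ?_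
  rw [mem_autInducedBy_iff]
  refine ⟨jh h g, by rw [← hS]; exact ⟨g, rfl⟩, fun x => ?_⟩
  obtain ⟨x', rfl⟩ := (eK h K).surjective x
  rw [congr_coe, eK_coe, ← fn_coe, hg x' x'.2, map_mul, map_mul, map_inv]

/-- small automizer -/
theorem card_aut_le (h : Rel r w d) (hS : (jh h).range = S) {K : Subgroup M}
    (hK : ∀ m m' : M, (∀ x ∈ K, m * x * m⁻¹ ∈ K) → (∀ x ∈ K, m' * x * m'⁻¹ ∈ K) →
      (∀ x ∈ K, m * x * m⁻¹ = x) ∨ (∀ x ∈ K, m' * x * m'⁻¹ = x) ∨ ∀ x ∈ K, m * x * m⁻¹ = m' * x * m'⁻¹) :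
    Nat.card (autInducedBy S (K.map (jh h))) ≤ 2 := by
  have h1 : ∀ α ∈ autInducedBy S (K.map (jh h)), ∃ m : M, (∀ x ∈ K, m * x * m⁻¹ ∈ K) ∧
      ∀ x : K, (α (eK h K x) : Ω) = jh h (m * x * m⁻¹) := by
    intro α hα
    rw [mem_autInducedBy_iff] at hα
    obtain ⟨g, hg, hgx⟩ := hα
    rw [← hS] at hg
    obtain ⟨m, rfl⟩ := hg
    refine ⟨m, fun x hx => ?_, fun x => ?_⟩
    · have h2 := (α (eK h K ⟨x, hx⟩)).2
      rw [hgx, eK_coe, ← map_inv, ← map_mul, ← map_mul] at h2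
      exact (Subgroup.mem_map_iff_mem (jh_inj h)).1 h2
    · rw [hgx, eK_coe, map_mul, map_mul, map_inv]
  have h2 : ∀ α ∈ autInducedBy S (K.map (jh h)), ∀ β ∈ autInducedBy S (K.map (jh h)), α = 1 ∨ β = 1 ∨ α = β := by
    intro α hα β hβ
    obtain ⟨m, hm, hm'⟩ := h1 α hα
    obtain ⟨n, hn, hn'⟩ := h1 β hβ
    rcases hK m n hm hn with e | e | e
    · left
      apply MulEquiv.ext
      intro x
      obtain ⟨x', rfl⟩ := (eK h K).surjective x
      apply Subtype.ext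
      rw [hm', e x' x'.2]
      rfl
    · right; left
      apply MulEquiv.ext
      intro x
      obtain ⟨x', rfl⟩ := (eK h K).surjective x
      apply Subtype.ext
      rw [hn', e x' x'.2]
      rfl
    · right; right
      apply MulEquiv.ext
      intro x
      obtain ⟨x', rfl⟩ := (eK h K).surjective x
      apply Subtype.ext
      rw [hn', hm', e x' x'.2]
  by_cases hb : ∃ a ∈ autInducedBy S (K.map (jh h)), a ≠ 1
  · obtain ⟨a, ha, ha1⟩ := hb
    have h3 : ((autInducedBy S (K.map (jh h)) : Subgroup _) : Set (MulAut (K.map (jh h)))) ⊆ {1, a} := by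
      intro b hb
      rcases h2 a ha b hb with e | e | e
      · exact absurd e ha1
      · exact Or.inl e
      · exact Or.inr e.symm
    have h4 : Nat.card (autInducedBy S (K.map (jh h))) =
      ((autInducedBy S (K.map (jh h)) : Subgroup _) : Set (MulAut (K.map (jh h)))).ncard := rfl
    rw [h4]
    exact (Set.ncard_le_ncard h3 (Set.toFinite _)).trans (Set.ncard_pair ha1.symm).le
  · push Not at hb
    have h3 : autInducedBy S (K.map (jh h)) = ⊥ := by
      rw [eq_bot_iff]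
      intro b hb'
      exact Subgroup.mem_bot.2 (hb b hb')
    rw [h3]
    simp

theorem not_four [Finite S] (hSp : IsPGroup 2 S) {F : FusionSystem S} {Q : Subgroup Ω} (hF : F.IsSaturated 2)
    (hQ : F.IsFullyNormalized Q) (hc : Nat.card (autInducedBy S Q) ≤ 2) : ¬ 4 ∣ Nat.card (F.autGroup Q) := by
  have : Fact (Nat.Prime 2) := ⟨Nat.prime_two⟩
  have hfin : Finite Q := finite_of_le hQ.1
  have h1 := (isFullyAutomized_iff_card hSp hQ.1).1 (isFullyAutomized_of_isFullyNormalized hSp hF hQ)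
  rw [h1] at hc
  intro h2
  have h3 : (Nat.card (F.autGroup Q)).factorization 2 ≤ 1 := by
    by_contra hlt
    have : 2 ^ 2 ≤ 2 ^ (Nat.card (F.autGroup Q)).factorization 2 := Nat.pow_le_pow_right (by norm_num) (by omega)
    omega
  have h4 : 2 ≤ (Nat.card (F.autGroup Q)).factorization 2 :=
    (Nat.prime_two.pow_dvd_iff_le_factorization Nat.card_pos.ne').1 (by simpa using h2)
  omega

/-- the case `K = VM` -/
theorem case_V [Finite S] (h : Rel r w d) (hS : (jh h).range = S) {F : FusionSystem S}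
    (h4 : ¬ 4 ∣ Nat.card (F.autGroup (VM.map (jh h)))) (hs : sV ∈ AF h F VM) {β : MulAut VM} (hβ : β ∈ AF h F VM)
    (ho : Odd (orderOf β)) : β = 1 ∨ β = sV ∨ β = sV * sV := by
  have hc : Nat.card (AF h F VM) = Nat.card (F.autGroup (VM.map (jh h))) := by
    exact Nat.card_congr (Equiv.subtypeEquiv (MulAut.congr (eK h VM)).toEquiv (fun _ => Iff.rfl))
  have ht : tV ∈ AF h F VM := mem_AF_of_conj h hS (M.r ^ 2) (fun u hu => fn_tV hu)
  obtain ⟨h1, h2, h3⟩ := v_main (No4.of_card (hc ▸ h4)) ht hs hβ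
  exact v_odd ho h1 h2 h3

theorem f_V : ∀ m m' : M, (∀ x ∈ VM, m * x * m⁻¹ ∈ VM) → (∀ x ∈ VM, m' * x * m'⁻¹ ∈ VM) →
      (∀ x ∈ VM, m * x * m⁻¹ = x) ∨ (∀ x ∈ VM, m' * x * m'⁻¹ = x) ∨ ∀ x ∈ VM, m * x * m⁻¹ = m' * x * m'⁻¹ := by
  have h1 : ∀ m : M, (∀ x ∈ VM, m * x * m⁻¹ ∈ VM) →
      (∀ x ∈ VM, m * x * m⁻¹ = x) ∨ (∀ x ∈ VM, m * x * m⁻¹ = M.r ^ 2 * x * (M.r ^ 2)⁻¹) := by decide
  intro m m' hm hm'
  rcases h1 m hm with e | e
  · exact Or.inl e
  · rcases h1 m' hm' with e' | e'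
    · exact Or.inr (Or.inl e')
    · exact Or.inr (Or.inr fun x hx => by rw [e x hx, e' x hx])

instance (x : M) : Decidable (x ∈ VM') := decidable_of_iff _ (mem_VM' x).symm

theorem f_V' : ∀ m m' : M, (∀ x ∈ VM', m * x * m⁻¹ ∈ VM') → (∀ x ∈ VM', m' * x * m'⁻¹ ∈ VM') →
      (∀ x ∈ VM', m * x * m⁻¹ = x) ∨ (∀ x ∈ VM', m' * x * m'⁻¹ = x) ∨ ∀ x ∈ VM', m * x * m⁻¹ = m' * x * m'⁻¹ := by
  have h1 : ∀ m : M, (∀ x ∈ VM', m * x * m⁻¹ ∈ VM') →
      (∀ x ∈ VM', m * x * m⁻¹ = x) ∨ (∀ x ∈ VM', m * x * m⁻¹ = M.r ^ 2 * x * (M.r ^ 2)⁻¹) := by decide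
  intro m m' hm hm'
  rcases h1 m hm with e | e
  · exact Or.inl e
  · rcases h1 m' hm' with e' | e'
    · exact Or.inr (Or.inl e')
    · exact Or.inr (Or.inr fun x hx => by rw [e x hx, e' x hx])

/-- `VM' = r VM r⁻¹` -/
theorem map_conj_V (h : Rel r w d) : (conjHom (VM.map (jh h)) (jh h M.r)).range = VM'.map (jh h) := by
  have h1 : ∀ x ∈ VM, M.r * x * M.r⁻¹ ∈ VM' := by decide
  have h2 : ∀ x ∈ VM', M.r⁻¹ * x * M.r ∈ VM := by decide
  ext y
  constructor
  · rintro ⟨⟨_, x, hx, rfl⟩, rfl⟩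
    refine ⟨M.r * x * M.r⁻¹, h1 x hx, ?_⟩
    rw [map_mul, map_mul, map_inv]
    rfl
  · rintro ⟨x, hx, rfl⟩
    refine ⟨⟨jh h (M.r⁻¹ * x * M.r), ⟨_, h2 x hx, rfl⟩⟩, ?_⟩
    show jh h M.r * jh h (M.r⁻¹ * x * M.r) * (jh h M.r)⁻¹ = jh h x
    rw [← map_mul, ← map_inv, ← map_mul]
    congr 1
    group

/-- **Comparison of two saturated systems.** -/
theorem comp [Finite S] (h : Rel r w d) (hS : (jh h).range = S) (hSp : IsPGroup 2 S) {F F' : FusionSystem S}
    (hF : F.IsSaturated 2) (hs : sV ∈ AF h F VM) (hs' : sV ∈ AF h F' VM)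
    (hR : (∃ β ∈ AF h F RM, Odd (orderOf β) ∧ β ≠ 1) → ∃ β ∈ AF h F' RM, Odd (orderOf β) ∧ β ≠ 1)
    (P : Subgroup Ω) : F.Hom P ⊆ F'.Hom P := by
  have : Fact (Nat.Prime 2) := ⟨Nat.prime_two⟩
  have hrS : jh h M.r ∈ S := by rw [← hS]; exact ⟨_, rfl⟩
  -- the case `V`
  have hV : ¬ 4 ∣ Nat.card (F.autGroup (VM.map (jh h))) → ∀ β ∈ AF h F VM, Odd (orderOf β) → β ∈ AF h F' VM := by
    intro h4 β hβ ho
    rcases case_V h hS h4 hs hβ ho with e | e | e
    · rw [e]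
      exact Subgroup.one_mem _
    · rw [e]
      exact hs'
    · rw [e]
      exact Subgroup.mul_mem _ hs' hs'
  refine hom_le_of_odd hSp hF (fun Q hQ hQn hQc α hα ho => ?_) P
  obtain ⟨K, rfl⟩ := exists_K h hS hQ
  have hK : ∀ z : M, (∀ x ∈ K, x * z = z * x) → z ∈ K := by
    intro z hz
    refine (Subgroup.mem_map_iff_mem (jh_inj h)).1 (hQc ⟨?_, ?_⟩)
    · show jh h z ∈ S
      rw [← hS]
      exact ⟨z, rfl⟩
    · show jh h z ∈ Subgroup.centralizer _
      rw [Subgroup.mem_centralizer_iff]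
      rintro _ ⟨x, hx, rfl⟩
      rw [← map_mul, ← map_mul, hz x hx]
  obtain ⟨β, rfl⟩ := (MulAut.congr (eK h K)).surjective α
  have hβ : β ∈ AF h F K := hα
  have hoβ : Odd (orderOf β) := by
    rwa [MulEquiv.orderOf_eq] at ho
  show β ∈ AF h F' K
  rcases (act_fn β hoβ).classify hK with e | e | e | e
  · have : β = 1 := by
      apply eq_of_fn
      intro u hu
      rw [e u hu, fn_apply _ hu]
      rfl
    rw [this]
    exact Subgroup.one_mem _
  · subst e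
    exact hV (not_four hSp hF hQn (card_aut_le h hS f_V)) β hβ hoβ
  · subst e
    have hnot := not_four hSp hF hQn (card_aut_le h hS f_V')
    set φ := conjHom (VM.map (jh h)) (jh h M.r) with hφ
    have hφF : φ ∈ F.Hom _ := F.conj_mem (map_le h hS VM) hrS
    have hφF' : φ ∈ F'.Hom _ := F'.conj_mem (map_le h hS VM) hrS
    have hr := map_conj_V h
    rw [← card_autGroup_eq (F := F) ⟨φ, hφF, hr⟩] at hnot
    obtain ⟨α, hα⟩ := (MulAut.congr (isoOf φ (F.injective_of_mem hφF) hr)).surjective (MulAut.congr (eK h VM') β)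
    have h1 : α ∈ F.autGroup (VM.map (jh h)) := by
      rw [← congr_mem_autGroup_iff hφF hr, hα]
      exact hβ
    obtain ⟨γ, rfl⟩ := (MulAut.congr (eK h VM)).surjective α
    have hoγ : Odd (orderOf γ) := by
      have h2 := congrArg orderOf hα
      rw [MulEquiv.orderOf_eq, MulEquiv.orderOf_eq, MulEquiv.orderOf_eq] at h2
      rw [h2]
      exact hoβ
    have h3 : γ ∈ AF h F' VM := hV hnot γ h1 hoγ
    have h4 := (congr_mem_autGroup_iff hφF' hr).2 h3
    rw [mem_AF]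
    rw [← hα]
    exact h4
  · subst e
    by_cases hβ1 : β = 1
    · rw [hβ1]
      exact Subgroup.one_mem _
    obtain ⟨γ, hγ, hγo, hγ1⟩ := hR ⟨β, hβ, hoβ, hβ1⟩
    obtain ⟨δ, hδ, g, hg, hgu⟩ := r_main hoβ hγo hβ1 hγ1
    have hδF : δ ∈ AF h F' RM := by
      rcases hδ with e | e
      · rw [e]; exact hγ
      · rw [e]; exact Subgroup.mul_mem _ hγ hγ
    have h5 : β * δ ∈ AF h F' RM := mem_AF_of_conj h hS g hgu
    have h6 : β = (β * δ) * δ⁻¹ := by group
    rw [h6]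
    exact Subgroup.mul_mem _ h5 (Subgroup.inv_mem _ hδF)

end Cfsg.Agent.H663.Hol
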