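import Cfsg.Agent.H663.Hol.Class

/-!
# Automorphisms of `V = ⟨r⁴, w, d⟩` (helper663)
-/

set_option autoImplicit false
set_option maxRecDepth 20000

namespace Cfsg.Agent.H663.Hol

open M Act

/-- an automorphism of a subgroup as a function on `M` -/
noncomputable def fn {K : Subgroup M} (β : MulAut K) (x : M) : M :=
  open Classical in if h : x ∈ K then (β ⟨x, h⟩ : M) else x

theorem fn_apply {K : Subgroup M} (β : MulAut K) {x : M} (h : x ∈ K) : fn β x = (β ⟨x, h⟩ : M) := dif_pos h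

theorem fn_coe {K : Subgroup M} (β : MulAut K) (x : K) : fn β x = (β x : M) := dif_pos x.2

theorem fn_mem {K : Subgroup M} (β : MulAut K) {x : M} (h : x ∈ K) : fn β x ∈ K := by
  rw [fn_apply β h]
  exact (β _).2

theorem fn_mul {K : Subgroup M} (β γ : MulAut K) {x : M} (h : x ∈ K) : fn (β * γ) x = fn β (fn γ x) := by
  rw [fn_apply _ h, fn_apply _ h, fn_coe]
  rfl

theorem fn_map_mul {K : Subgroup M} (β : MulAut K) {x y : M} (hx : x ∈ K) (hy : y ∈ K) :
    fn β (x * y) = fn β x * fn β y := by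
  rw [fn_apply _ hx, fn_apply _ hy, fn_apply _ (K.mul_mem hx hy), ← Subgroup.coe_mul, ← map_mul]
  rfl

theorem fn_iter {K : Subgroup M} (β : MulAut K) (n : ℕ) {x : M} (h : x ∈ K) :
    (fn β)^[n] x = fn (β ^ n) x := by
  induction n generalizing x with
  | zero =>
    rw [pow_zero, fn_apply _ h]
    rfl
  | succ n ih =>
    rw [Function.iterate_succ_apply, ih (fn_mem β h), pow_succ, fn_mul _ _ h]

theorem act_fn {K : Subgroup M} (β : MulAut K) (h : Odd (orderOf β)) : Act K (fn β) where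
  map _ hx := fn_mem β hx
  mul _ hx _ hy := fn_map_mul β hx hy
  odd := ⟨orderOf β, h, fun x hx => by
    rw [fn_iter β _ hx, pow_orderOf_eq_one, fn_apply _ hx]
    rfl⟩

theorem eq_of_fn {K : Subgroup M} {β γ : MulAut K} (h : ∀ x ∈ K, fn β x = fn γ x) : β = γ := by
  apply MulEquiv.ext
  intro x
  have := h x x.2
  rw [fn_coe, fn_coe] at this
  exact Subtype.ext this

theorem fn_injOn {K : Subgroup M} (β : MulAut K) {x y : M} (hx : x ∈ K) (hy : y ∈ K)
    (h : fn β x = fn β y) : x = y := by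
  rw [fn_apply _ hx, fn_apply _ hy] at h
  exact congrArg Subtype.val (β.injective (Subtype.ext h))

/-! ### the automorphisms `s` and `t` of `VM` -/

/-- `r⁴ → w → r⁴w → r⁴`, `d → d` -/
def sf (x : M) : M := ⟨if x.a then 4 else 0, xor (x.i != 0) x.a, x.b⟩

/-- an automorphism of `K` given by a function -/
def autOf (K : Subgroup M) (f g : M → M) (h1 : ∀ x ∈ K, f x ∈ K) (h2 : ∀ x ∈ K, g x ∈ K)
    (h3 : ∀ x ∈ K, g (f x) = x) (h4 : ∀ x ∈ K, f (g x) = x)
    (h5 : ∀ x ∈ K, ∀ y ∈ K, f (x * y) = f x * f y) : MulAut K where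
  toFun x := ⟨f x, h1 x x.2⟩
  invFun x := ⟨g x, h2 x x.2⟩
  left_inv x := Subtype.ext (h3 x x.2)
  right_inv x := Subtype.ext (h4 x x.2)
  map_mul' x y := Subtype.ext (h5 x x.2 y y.2)

instance (x : M) : Decidable (x ∈ VM) := decidable_of_iff _ (mem_VM x).symm
instance (x : M) : Decidable (x ∈ RM) := decidable_of_iff _ (mem_RM x).symm

def sV : MulAut VM := autOf VM sf (fun x => sf (sf x)) (by decide) (by decide) (by decide) (by decide) (by decide)

def tf (x : M) : M := r ^ 2 * x * (r ^ 2)⁻¹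

def tV : MulAut VM := autOf VM tf tf (by decide) (by decide) (by decide) (by decide) (by decide)

theorem fn_sV {x : M} (h : x ∈ VM) : fn sV x = sf x := fn_apply _ h
theorem fn_tV {x : M} (h : x ∈ VM) : fn tV x = tf x := fn_apply _ h

/-- no two different commuting involutions -/
def No4 {G : Type*} [Group G] (A : Subgroup G) : Prop :=
  ∀ a ∈ A, ∀ b ∈ A, a * a = 1 → b * b = 1 → a * b = b * a → a ≠ 1 → b ≠ 1 → a = b

theorem No4.of_card {G : Type*} [Group G] [Finite G] {A : Subgroup G} (h : ¬ 4 ∣ Nat.card A) : No4 A := by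
  intro a ha b hb ha2 hb2 hab ha1 hb1
  by_contra hne
  have hc : Commute a b := hab
  let B : Subgroup G :=
    { carrier := {x | x = 1 ∨ x = a ∨ x = b ∨ x = a * b}
      one_mem' := Or.inl rfl
      mul_mem' := by
        have e1 : a * (a * b) = b := by rw [← mul_assoc, ha2, one_mul]
        have e2 : b * (a * b) = a := by rw [← mul_assoc, ← hab, mul_assoc, hb2, mul_one]
        have e3 : a * b * a = b := by rw [hab, mul_assoc, ha2, mul_one]
        have e4 : a * b * b = a := by rw [mul_assoc, hb2, mul_one]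
        have e5 : a * b * (a * b) = 1 := by rw [← mul_assoc, e3, hb2]
        rintro x y (rfl | rfl | rfl | rfl) (rfl | rfl | rfl | rfl) <;>
          simp [ha2, hb2, e1, e2, e3, e4, e5, hab.symm]
      inv_mem' := by
        have e1 : a⁻¹ = a := inv_eq_of_mul_eq_one_left ha2
        have e2 : b⁻¹ = b := inv_eq_of_mul_eq_one_left hb2
        rintro x (rfl | rfl | rfl | rfl)
        · simp
        · simp [e1]
        · simp [e2]
        · simp [e1, e2, hab.symm] }
  have hBA : B ≤ A := by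
    rintro x (rfl | rfl | rfl | rfl)
    · exact A.one_mem
    · exact ha
    · exact hb
    · exact A.mul_mem ha hb
  have h4 : Nat.card B = 4 := by
    have hab1 : a * b ≠ 1 := fun e => hne (by
      have := mul_eq_one_iff_eq_inv.1 e
      rw [this, inv_eq_of_mul_eq_one_left hb2])
    have e1 : (B : Set G) = ({1, a, b, a * b} : Set G) := by
      ext x
      simp [B]
    have e2 : Nat.card B = ({1, a, b, a * b} : Set G).ncard := by
      rw [← e1]
      rfl
    rw [e2, Set.ncard_insert_of_notMem, Set.ncard_insert_of_notMem, Set.ncard_pair]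
    · intro e
      exact ha1 (by simpa using e.symm)
    · simp only [Set.mem_insert_iff, Set.mem_singleton_iff, not_or]
      exact ⟨hne, fun e => hb1 (by simpa using e.symm)⟩
    · simp only [Set.mem_insert_iff, Set.mem_singleton_iff, not_or]
      exact ⟨fun e => ha1 e.symm, fun e => hb1 e.symm, fun e => hab1 e.symm⟩
  apply h
  rw [← h4]
  exact Subgroup.card_dvd_of_le hBA

theorem mulaut_ext {K : Subgroup M} {β γ : MulAut K} (h : ∀ x : K, β x = γ x) : β = γ := MulEquiv.ext h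

/-- the transvections -/
theorem v_key {A : Subgroup (MulAut VM)} (h4 : No4 A) (ht : tV ∈ A) {i : MulAut VM} (hi : i ∈ A)
    (hi2 : i * i = 1) (hi1 : i ≠ 1) {β : MulAut VM} (hβ : β ∈ A)
    (hc : i (β ⟨r ^ 4, by decide⟩) = β ⟨r ^ 4, by decide⟩) : β * tV * β⁻¹ = i := by
  set z : VM := ⟨r ^ 4, by decide⟩ with hz
  set c := β z with hcdef
  have ht2 : tV * tV = 1 := mulaut_ext fun x => Subtype.ext (by
    have h1 : ∀ x : M, x ∈ VM → tf (tf x) = x := by decide
    exact h1 x x.2)
  have ht1 : tV ≠ 1 := by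
    intro e
    have h1 := congrArg (fun γ : MulAut VM => ((γ ⟨w, by decide⟩ : VM) : M)) e
    exact absurd h1 (by decide)
  have htz : tV z = z := Subtype.ext (by decide)
  have htx : ∀ x : VM, tV x = x ∨ tV x = x * z := by
    intro x
    have h1 : ∀ x : M, x ∈ VM → tf x = x ∨ tf x = x * r ^ 4 := by decide
    rcases h1 x x.2 with e | e
    · exact Or.inl (Subtype.ext e)
    · exact Or.inr (Subtype.ext e)
  have hcc : ∀ x : VM, x * x = 1 := by
    intro x
    have h1 : ∀ x : M, x ∈ VM → x * x = 1 := by decide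
    exact Subtype.ext (h1 x x.2)
  -- σ
  set σ := β * tV * β⁻¹ with hσ
  have hσA : σ ∈ A := A.mul_mem (A.mul_mem hβ ht) (A.inv_mem hβ)
  have hσ2 : σ * σ = 1 := by
    have : σ * σ = β * (tV * tV) * β⁻¹ := by rw [hσ]; group
    rw [this, ht2]
    group
  have hσ1 : σ ≠ 1 := by
    intro e
    apply ht1
    have : tV = β⁻¹ * σ * β := by rw [hσ]; group
    rw [this, e]
    group
  have hσx : ∀ x, σ x = x ∨ σ x = x * c := by
    intro x
    have h1 : σ x = β (tV (β⁻¹ x)) := rfl
    rcases htx (β⁻¹ x) with e | e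
    · left
      rw [h1, e]
      exact MulAut.apply_inv_self _ _ _
    · right
      rw [h1, e, map_mul, MulAut.apply_inv_self]
  have hσc : σ c = c := by
    have h1 : σ c = β (tV (β⁻¹ c)) := rfl
    rw [h1, hcdef, MulAut.inv_apply_self, htz]
  set σ' := i * σ * i⁻¹ with hσ'
  have hii : i⁻¹ = i := inv_eq_of_mul_eq_one_left hi2
  have hσA' : σ' ∈ A := A.mul_mem (A.mul_mem hi hσA) (A.inv_mem hi)
  have hσ2' : σ' * σ' = 1 := by
    have : σ' * σ' = i * (σ * σ) * i⁻¹ := by rw [hσ']; group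
    rw [this, hσ2]
    group
  have hσ1' : σ' ≠ 1 := by
    intro e
    apply hσ1
    have : σ = i⁻¹ * σ' * i := by rw [hσ']; group
    rw [this, e]
    group
  have hσx' : ∀ x, σ' x = x ∨ σ' x = x * c := by
    intro x
    have h1 : σ' x = i (σ (i⁻¹ x)) := rfl
    rcases hσx (i⁻¹ x) with e | e
    · left
      rw [h1, e]
      exact MulAut.apply_inv_self _ _ _
    · right
      rw [h1, e, map_mul, MulAut.apply_inv_self, hc]
  have hσc' : σ' c = c := by
    have h1 : σ' c = i (σ (i⁻¹ c)) := rfl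
    rw [h1, hii, hc, hσc, hc]
  have hcomm : σ * σ' = σ' * σ := by
    apply mulaut_ext
    intro x
    show σ (σ' x) = σ' (σ x)
    rcases hσx x with e | e <;> rcases hσx' x with e' | e'
    · rw [e, e', e]
    · rw [e, e', map_mul, e, hσc]
    · rw [e', e, map_mul, e', hσc']
    · rw [e, e', map_mul, map_mul, e, e', hσc, hσc']
  have h5 := h4 σ hσA σ' hσA' hσ2 hσ2' hcomm hσ1 hσ1'
  have h6 : σ * i = i * σ := by
    have : i * σ = σ' * i := by rw [hσ']; group
    rw [this, ← h5]
  exact h4 σ hσA i hi hσ2 hi2 h6 hσ1 hi1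

def t1f (x : M) : M := sf (tf (sf (sf x)))
def t2f (x : M) : M := sf (sf (tf (sf x)))

/-- one transvection -/
theorem v_one {A : Subgroup (MulAut VM)} (h4 : No4 A) (ht : tV ∈ A) {i : MulAut VM} (hi : i ∈ A)
    {g : M → M} (hg : ∀ x : VM, (i x : M) = g x) (hi2 : ∀ x ∈ VM, g (g x) = x) {c : M}
    (hcx : ∀ x ∈ VM, g x = x ∨ g x = x * c) {y : M} (hy : y ∈ VM) (hi1 : g y ≠ y) {β : MulAut VM} (hβ : β ∈ A)
    (hc : g (fn β (r ^ 4)) = fn β (r ^ 4)) : fn β (r ^ 4) = c ∧ g (fn β d) = fn β d := by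
  have hz : (r ^ 4 : M) ∈ VM := by decide
  have hd : (d : M) ∈ VM := by decide
  have hw : (w : M) ∈ VM := by decide
  have h1 := v_key h4 ht hi (mulaut_ext fun x => Subtype.ext (by
    show ((i (i x) : VM) : M) = x
    rw [hg, hg]
    exact hi2 x x.2)) (fun e => hi1 (by
      rw [← hg ⟨y, hy⟩, e]
      rfl)) hβ (Subtype.ext (by
        rw [hg, ← fn_apply β hz]
        exact hc))
  have h2 : ∀ x : VM, i (β x) = β (tV x) := by
    intro x
    rw [← h1]
    show β (tV (β⁻¹ (β x))) = _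
    rw [MulAut.inv_apply_self]
  have h3 : g (fn β d) = fn β d := by
    have := congrArg Subtype.val (h2 ⟨d, hd⟩)
    rw [hg, ← fn_apply β hd] at this
    rw [this, fn_apply β hd]
    congr 2
    exact Subtype.ext (show tf d = d by decide)
  have h5 : g (fn β w) = fn β w * fn β (r ^ 4) := by
    have := congrArg Subtype.val (h2 ⟨w, hw⟩)
    rw [hg, ← fn_apply β hw] at this
    rw [this, ← fn_map_mul β hw hz, fn_apply β (VM.mul_mem hw hz)]
    congr 2
    exact Subtype.ext (show tf w = w * r ^ 4 by decide)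
  refine ⟨?_, h3⟩
  rcases hcx _ (fn_mem β hw) with e | e
  · rw [e] at h5
    have h6 : fn β (r ^ 4) = 1 := mul_eq_left.1 h5.symm
    have h7 : fn β 1 = 1 := by
      rw [fn_apply β VM.one_mem]
      exact congrArg Subtype.val (map_one β)
    exact absurd (fn_injOn β hz VM.one_mem (h6.trans h7.symm)) (by decide)
  · rw [e] at h5
    exact (mul_left_cancel h5).symm

theorem v_three {A : Subgroup (MulAut VM)} (h4 : No4 A) (ht : tV ∈ A) (hs : sV ∈ A) {β : MulAut VM} (hβ : β ∈ A) :
    (fn β (r ^ 4) = r ^ 4 ∧ tf (fn β d) = fn β d) ∨ (fn β (r ^ 4) = w ∧ t1f (fn β d) = fn β d) ∨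
      (fn β (r ^ 4) = r ^ 4 * w ∧ t2f (fn β d) = fn β d) := by
  have hz : (r ^ 4 : M) ∈ VM := by decide
  have h1 : ∀ x ∈ VM, tf x = x ∨ t1f x = x ∨ t2f x = x := by decide
  have hw : (w : M) ∈ VM := by decide
  rcases h1 _ (fn_mem β hz) with e | e | e
  · left
    exact v_one h4 ht ht (g := tf) (fun x => rfl) (by decide) (by decide) hw (by decide) hβ e
  · right; left
    exact v_one h4 ht (A.mul_mem (A.mul_mem hs ht) (A.mul_mem hs hs)) (g := t1f) (fun x => rfl) (by decide) (by decide)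
      hz (by decide) hβ e
  · right; right
    exact v_one h4 ht (A.mul_mem (A.mul_mem (A.mul_mem hs hs) ht) hs) (g := t2f) (fun x => rfl) (by decide)
      (by decide) hw (by decide) hβ e

/-- Every element of `A` fixes `d` and preserves `⟨r⁴, w⟩`. -/
theorem v_main {A : Subgroup (MulAut VM)} (h4 : No4 A) (ht : tV ∈ A) (hs : sV ∈ A) {β : MulAut VM} (hβ : β ∈ A) :
    fn β d = d ∧ (fn β (r ^ 4) = r ^ 4 ∨ fn β (r ^ 4) = w ∨ fn β (r ^ 4) = r ^ 4 * w) ∧
      (fn β w = r ^ 4 ∨ fn β w = w ∨ fn β w = r ^ 4 * w) := by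
  have hz : (r ^ 4 : M) ∈ VM := by decide
  have hd : (d : M) ∈ VM := by decide
  have hw : (w : M) ∈ VM := by decide
  have h1 := v_three h4 ht hs hβ
  have h2 := v_three h4 ht hs (A.mul_mem hβ hs)
  rw [fn_mul β sV hz, fn_mul β sV hd, fn_sV hz, fn_sV hd, show sf (r ^ 4) = w by decide,
    show sf d = d by decide] at h2
  have hne : fn β (r ^ 4) ≠ fn β w := fun e => absurd (fn_injOn β hz hw e) (by decide)
  have hd1 : fn β d ≠ 1 := by
    intro e
    have h7 : fn β 1 = 1 := by
      rw [fn_apply β VM.one_mem]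
      exact congrArg Subtype.val (map_one β)
    exact absurd (fn_injOn β hd VM.one_mem (e.trans h7.symm)) (by decide)
  have f01 : ∀ x ∈ VM, tf x = x → t1f x = x → x ≠ 1 → x = d := by decide
  have f02 : ∀ x ∈ VM, tf x = x → t2f x = x → x ≠ 1 → x = d := by decide
  have f12 : ∀ x ∈ VM, t1f x = x → t2f x = x → x ≠ 1 → x = d := by decide
  have hdm := fn_mem β hd
  refine ⟨?_, ?_, ?_⟩
  · rcases h1 with ⟨e1, e2⟩ | ⟨e1, e2⟩ | ⟨e1, e2⟩ <;> rcases h2 with ⟨g1, g2⟩ | ⟨g1, g2⟩ | ⟨g1, g2⟩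
    · exact absurd (e1.trans g1.symm) hne
    · exact f01 _ hdm e2 g2 hd1
    · exact f02 _ hdm e2 g2 hd1
    · exact f01 _ hdm g2 e2 hd1
    · exact absurd (e1.trans g1.symm) hne
    · exact f12 _ hdm e2 g2 hd1
    · exact f02 _ hdm g2 e2 hd1
    · exact f12 _ hdm g2 e2 hd1
    · exact absurd (e1.trans g1.symm) hne
  · rcases h1 with ⟨e1, e2⟩ | ⟨e1, e2⟩ | ⟨e1, e2⟩
    · exact Or.inl e1
    · exact Or.inr (Or.inl e1)
    · exact Or.inr (Or.inr e1)
  · rcases h2 with ⟨e1, e2⟩ | ⟨e1, e2⟩ | ⟨e1, e2⟩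
    · exact Or.inl e1
    · exact Or.inr (Or.inl e1)
    · exact Or.inr (Or.inr e1)

/-- automorphisms of odd order fixing `d` and preserving `⟨r⁴, w⟩` -/
theorem v_odd {β : MulAut VM} (ho : Odd (orderOf β)) (h1 : fn β d = d)
    (h2 : fn β (r ^ 4) = r ^ 4 ∨ fn β (r ^ 4) = w ∨ fn β (r ^ 4) = r ^ 4 * w)
    (h3 : fn β w = r ^ 4 ∨ fn β w = w ∨ fn β w = r ^ 4 * w) : β = 1 ∨ β = sV ∨ β = sV * sV := by
  have hz : (r ^ 4 : M) ∈ VM := by decide
  have hd : (d : M) ∈ VM := by decide
  have hw : (w : M) ∈ VM := by decide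
  have hzw : (r ^ 4 * w : M) ∈ VM := by decide
  have ha := act_fn β ho
  have hne : fn β (r ^ 4) ≠ fn β w := fun e => absurd (fn_injOn β hz hw e) (by decide)
  -- two automorphisms agreeing on `r⁴, w, d`
  have hext : ∀ γ : MulAut VM, fn β (r ^ 4) = fn γ (r ^ 4) → fn β w = fn γ w → fn β d = fn γ d → β = γ := by
    intro γ e1 e2 e3
    apply eq_of_fn
    have h4 : ∀ x ∈ VM, x = 1 ∨ x = d ∨ x = r ^ 4 ∨ x = r ^ 4 * d ∨ x = w ∨ x = w * d ∨ x = r ^ 4 * w ∨
      x = r ^ 4 * w * d := by decide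
    intro x hx
    have h71 : ∀ γ : MulAut VM, fn γ 1 = 1 := by
      intro γ
      rw [fn_apply γ VM.one_mem]
      exact congrArg Subtype.val (map_one γ)
    rcases h4 x hx with e | e | e | e | e | e | e | e
    · rw [e, h71, h71]
    · rw [e, e3]
    · rw [e, e1]
    · rw [e, fn_map_mul _ hz hd, fn_map_mul _ hz hd, e1, e3]
    · rw [e, e2]
    · rw [e, fn_map_mul _ hw hd, fn_map_mul _ hw hd, e2, e3]
    · rw [e, fn_map_mul _ hz hw, fn_map_mul _ hz hw, e1, e2]
    · rw [e, fn_map_mul _ hzw hd, fn_map_mul _ hz hw, fn_map_mul _ hzw hd, fn_map_mul _ hz hw, e1, e2, e3]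
  rcases h2 with e | e | e
  · -- identity
    left
    have h5 : fn β w = w ∨ fn β w = r ^ 4 * w := by
      rcases h3 with g | g | g
      · exact absurd (e.trans g.symm) hne
      · exact Or.inl g
      · exact Or.inr g
    have h6 : fn β w = w := by
      refine ha.pair (y := r ^ 4 * w) hw h5 ?_
      rw [ha.mul _ hz _ hw, e]
      rcases h5 with g | g
      · right
        rw [g]
      · left
        rw [g]
        decide
    refine hext 1 ?_ ?_ ?_
    · rw [e, fn_apply _ hz]; rfl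
    · rw [h6, fn_apply _ hw]; rfl
    · rw [h1, fn_apply _ hd]; rfl
  · right; left
    have h5 : fn β w = r ^ 4 * w := by
      rcases h3 with g | g | g
      · have := ha.pair (y := w) hz (Or.inr e) (Or.inl g)
        rw [e] at this
        exact absurd this (by decide)
      · exact absurd (e.trans g.symm) hne
      · exact g
    refine hext sV ?_ ?_ ?_
    · rw [e, fn_sV hz]; decide
    · rw [h5, fn_sV hw]; decide
    · rw [h1, fn_sV hd]; decide
  · right; right
    have h5 : fn β w = r ^ 4 := by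
      rcases h3 with g | g | g
      · exact g
      · have h6 : fn β (r ^ 4 * w) = r ^ 4 := by
          rw [ha.mul _ hz _ hw, e, g]
          decide
        have := ha.pair (y := r ^ 4 * w) hz (Or.inr e) (Or.inl h6)
        rw [e] at this
        exact absurd this (by decide)
      · exact absurd (e.trans g.symm) hne
    refine hext (sV * sV) ?_ ?_ ?_
    · rw [e, fn_mul _ _ hz, fn_sV hz, fn_sV (by decide)]; decide
    · rw [h5, fn_mul _ _ hw, fn_sV hw, fn_sV (by decide)]; decide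
    · rw [h1, fn_mul _ _ hd, fn_sV hd, fn_sV (by decide)]; decide

end Cfsg.Agent.H663.Hol
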