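import Cfsg.Agent.H663.Hol.Real
import Cfsg.Agent.H756.HM.Stmts

/-!
# S5175, task Q2d: `StHol` (helper663)
-/

set_option autoImplicit false
set_option maxRecDepth 20000

namespace Cfsg.Agent.H663.Hol

open Cfsg Cfsg.FusionSystem Cfsg.Agent.H802

universe u

variable {Ω : Type u} [Group Ω] {S : Subgroup Ω} {r w d : Ω}

theorem VM_eq : VM = Subgroup.closure {M.r ^ 4, M.w, M.d} := by
  apply le_antisymm
  · intro x hx
    have h4 : ∀ x ∈ VM, ∃ i j k : Fin 2, x = (M.r ^ 4) ^ (i : ℕ) * M.w ^ (j : ℕ) * M.d ^ (k : ℕ) := by decide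
    obtain ⟨i, j, k, rfl⟩ := h4 x hx
    have e1 : (M.r ^ 4 : M) ∈ Subgroup.closure ({M.r ^ 4, M.w, M.d} : Set M) := Subgroup.subset_closure (by simp)
    have e2 : (M.w : M) ∈ Subgroup.closure ({M.r ^ 4, M.w, M.d} : Set M) := Subgroup.subset_closure (by simp)
    have e3 : (M.d : M) ∈ Subgroup.closure ({M.r ^ 4, M.w, M.d} : Set M) := Subgroup.subset_closure (by simp)
    exact Subgroup.mul_mem _ (Subgroup.mul_mem _ (Subgroup.pow_mem _ e1 _) (Subgroup.pow_mem _ e2 _))
      (Subgroup.pow_mem _ e3 _)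
  · rw [Subgroup.closure_le]
    rintro x (rfl | rfl | rfl)
    · show _ ∈ VM
      decide
    · show _ ∈ VM
      decide
    · show _ ∈ VM
      decide

theorem VM_map (h : Rel r w d) : VM.map (jh h) = Subgroup.closure {r ^ 4, w, d} := by
  rw [VM_eq, MonoidHom.map_closure]
  congr 1
  rw [Set.image_insert_eq, Set.image_pair, map_pow, jh_r, jh_w, jh_d]

theorem W_map (h : Rel r w d) {x : M} (hx : jh h x ∈ Subgroup.closure ({r ^ 4, w} : Set Ω)) :
    x = 1 ∨ x = M.r ^ 4 ∨ x = M.w ∨ x = M.r ^ 4 * M.w := by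
  have h1 : Subgroup.closure ({r ^ 4, w} : Set Ω) = (Subgroup.closure {M.r ^ 4, M.w}).map (jh h) := by
    rw [MonoidHom.map_closure]
    congr 1
    rw [Set.image_pair, map_pow, jh_r, jh_w]
  rw [h1, Subgroup.mem_map_iff_mem (jh_inj h)] at hx
  let W : Subgroup M := subOf (fun x => pV x && !x.b) (by decide) (by decide) (by decide)
  have h2 : Subgroup.closure {M.r ^ 4, M.w} ≤ W := by
    rw [Subgroup.closure_le]
    rintro x (rfl | rfl)
    · show (fun x => pV x && !x.b) _ = true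
      decide
    · show (fun x => pV x && !x.b) _ = true
      decide
  have h3 : (fun x => pV x && !x.b) x = true := h2 hx
  have h4 : ∀ x : M, (fun x => pV x && !x.b) x = true → x = 1 ∨ x = M.r ^ 4 ∨ x = M.w ∨ x = M.r ^ 4 * M.w := by
    decide
  exact h4 x h3

/-- the hypothesis on `V` -/
theorem sV_mem (h : Rel r w d) {F : FusionSystem S}
    (hα : ∃ α ∈ F.autGroup (VM.map (jh h)), orderOf α = 3 ∧ (∀ v : VM.map (jh h), (v : Ω) = d → α v = v) ∧
      ∀ v : VM.map (jh h), (v : Ω) ∈ Subgroup.closure {r ^ 4, w} →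
        ((α v : VM.map (jh h)) : Ω) ∈ Subgroup.closure {r ^ 4, w}) : sV ∈ AF h F VM := by
  obtain ⟨α, hα, ho, hd, hW⟩ := hα
  obtain ⟨β, rfl⟩ := (MulAut.congr (eK h VM)).surjective α
  rw [MulEquiv.orderOf_eq] at ho
  have hβ : β ∈ AF h F VM := hα
  have hzm : (M.r ^ 4 : M) ∈ VM := by decide
  have hdm : (M.d : M) ∈ VM := by decide
  have hwm : (M.w : M) ∈ VM := by decide
  have h71 : fn β 1 = 1 := by
    rw [fn_apply β VM.one_mem]
    exact congrArg Subtype.val (map_one β)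
  have hval : ∀ (x : M) (hx : x ∈ VM), ((MulAut.congr (eK h VM) β (eK h VM ⟨x, hx⟩) : VM.map (jh h)) : Ω) =
      jh h (fn β x) := by
    intro x hx
    rw [congr_coe, fn_apply β hx]
  have h1 : fn β M.d = M.d := by
    apply jh_inj h
    rw [← hval _ hdm, hd _ (by rw [eK_coe, jh_d])]
    rfl
  have hz : (r ^ 4 : Ω) ∈ Subgroup.closure ({r ^ 4, w} : Set Ω) := Subgroup.subset_closure (by simp)
  have hw : (w : Ω) ∈ Subgroup.closure ({r ^ 4, w} : Set Ω) := Subgroup.subset_closure (by simp)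
  have h2 : fn β (M.r ^ 4) = M.r ^ 4 ∨ fn β (M.r ^ 4) = M.w ∨ fn β (M.r ^ 4) = M.r ^ 4 * M.w := by
    have := hW (eK h VM ⟨_, hzm⟩) (by rw [eK_coe, map_pow, jh_r]; exact hz)
    rw [hval] at this
    rcases W_map h this with e | e
    · exact absurd (fn_injOn β hzm VM.one_mem (e.trans h71.symm)) (by decide)
    · exact e
  have h3 : fn β M.w = M.r ^ 4 ∨ fn β M.w = M.w ∨ fn β M.w = M.r ^ 4 * M.w := by
    have := hW (eK h VM ⟨_, hwm⟩) (by rw [eK_coe, jh_w]; exact hw)
    rw [hval] at this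
    rcases W_map h this with e | e
    · exact absurd (fn_injOn β hwm VM.one_mem (e.trans h71.symm)) (by decide)
    · exact e
  rcases v_odd (by rw [ho]; decide) h1 h2 h3 with e | e | e
  · rw [e, orderOf_one] at ho
    exact absurd ho (by decide)
  · rw [← e]
    exact hβ
  · have e3 : sV = β * β := by
      rw [e]
      apply eq_of_fn
      intro x hx
      have h5 : ∀ x ∈ VM, sf x = sf (sf (sf (sf x))) := by decide
      have m1 : sf x ∈ VM := by rw [← fn_sV hx]; exact fn_mem _ hx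
      have m2 : sf (sf x) ∈ VM := by rw [← fn_sV m1]; exact fn_mem _ m1
      have m3 : sf (sf (sf x)) ∈ VM := by rw [← fn_sV m2]; exact fn_mem _ m2
      rw [fn_mul _ _ hx, fn_mul _ _ hx, fn_sV hx, fn_sV m1, fn_mul _ _ m2, fn_sV m2, fn_sV m3]
      exact h5 x hx
    rw [e3]
    exact Subgroup.mul_mem _ hβ hβ

theorem RM_map {G : Type*} [Group G] {r' w' d' : G} (h' : Rel r' w' d') : RM.map (jh h') = RR r' w' d' := by
  have h1 : RM = Subgroup.closure {M.r ^ 2, M.r * M.w, M.d} := by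
    apply le_antisymm
    · intro x hx
      have h4 : ∀ x ∈ RM, ∃ i : Fin 4, ∃ j k : Fin 2, x = (M.r ^ 2) ^ (i : ℕ) * (M.r * M.w) ^ (j : ℕ) * M.d ^ (k : ℕ) := by
        decide
      obtain ⟨i, j, k, rfl⟩ := h4 x hx
      have e1 : (M.r ^ 2 : M) ∈ Subgroup.closure ({M.r ^ 2, M.r * M.w, M.d} : Set M) :=
        Subgroup.subset_closure (by simp)
      have e2 : (M.r * M.w : M) ∈ Subgroup.closure ({M.r ^ 2, M.r * M.w, M.d} : Set M) :=
        Subgroup.subset_closure (by simp)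
      have e3 : (M.d : M) ∈ Subgroup.closure ({M.r ^ 2, M.r * M.w, M.d} : Set M) :=
        Subgroup.subset_closure (by simp)
      exact Subgroup.mul_mem _ (Subgroup.mul_mem _ (Subgroup.pow_mem _ e1 _) (Subgroup.pow_mem _ e2 _))
        (Subgroup.pow_mem _ e3 _)
    · rw [Subgroup.closure_le]
      rintro x (rfl | rfl | rfl)
      · show _ ∈ RM
        decide
      · show _ ∈ RM
        decide
      · show _ ∈ RM
        decide
  rw [h1, MonoidHom.map_closure]
  unfold RR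
  congr 1
  rw [Set.image_insert_eq, Set.image_pair, map_pow, map_mul, jh_r, jh_w, jh_d]

/-- the case that `F` has no automorphism of order 3 of `R` -/
theorem noThree_iff {G : Type*} [Group G] {r' w' d' : G} (h : Rel r w d) (hS : (jh h).range = S)
    (h' : Rel r' w' d') (hn : NoThree r' w' d') : ¬ ∃ β ∈ AF h (FG h hS h') RM, Odd (orderOf β) ∧ β ≠ 1 := by
  rintro ⟨β, hβ, ho, hβ1⟩
  obtain ⟨g, hg⟩ := (mem_AF_FG h hS h').1 hβ
  apply hβ1
  have hm := RM_map h'
  have key : ∀ x ∈ RR r' w' d', ∃ u ∈ RM, x = jh h' u := by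
    intro x hx
    rw [← hm] at hx
    obtain ⟨u, hu, rfl⟩ := hx
    exact ⟨u, hu, rfl⟩
  have hmem : ∀ u ∈ RM, jh h' u ∈ RR r' w' d' := by
    intro u hu
    rw [← hm]
    exact ⟨u, hu, rfl⟩
  have h1 := hn g (by
    intro x hx
    obtain ⟨u, hu, rfl⟩ := key x hx
    rw [← hg u hu]
    exact hmem _ (fn_mem _ hu)) (by
    intro x hx
    obtain ⟨u, hu, rfl⟩ := key x hx
    have e1 : fn β (fn β (fn β u)) = u := r_cube (act_fn β ho) u hu
    have e2 : g ^ 3 * jh h' u * (g ^ 3)⁻¹ = g * (g * (g * jh h' u * g⁻¹) * g⁻¹) * g⁻¹ := by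
      simp only [pow_succ, pow_zero, one_mul, mul_inv_rev, mul_assoc]
    rw [e2, ← hg u hu, ← hg _ (fn_mem _ hu), ← hg _ (fn_mem _ (fn_mem _ hu)), e1])
  apply eq_of_fn
  intro u hu
  rw [fn_apply (1 : MulAut RM) hu]
  show fn β u = u
  apply jh_inj h'
  rw [hg u hu]
  exact h1 _ (hmem u hu)

/-- the case that `G` has an element acting with order 3 on `R` -/
theorem three {G : Type*} [Group G] {r' w' d' b : G} (h : Rel r w d) (hS : (jh h).range = S)
    (h' : Rel r' w' d') (h1 : ∀ x ∈ RR r' w' d', b * x * b⁻¹ ∈ RR r' w' d')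
    (h2 : ∀ x ∈ RR r' w' d', b ^ 3 * x * (b ^ 3)⁻¹ = x) (h3 : ∃ x ∈ RR r' w' d', b * x * b⁻¹ ≠ x) :
    ∃ β ∈ AF h (FG h hS h') RM, Odd (orderOf β) ∧ β ≠ 1 := by
  have hm := RM_map h'
  have hmem : ∀ u ∈ RM, jh h' u ∈ RR r' w' d' := by
    intro u hu
    rw [← hm]
    exact ⟨u, hu, rfl⟩
  -- the function
  have hex : ∀ u : M, ∃ v : M, u ∈ RM → v ∈ RM ∧ jh h' v = b * jh h' u * b⁻¹ := by
    intro u
    by_cases hu : u ∈ RM
    · have e := h1 _ (hmem u hu)
      rw [← hm] at e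
      obtain ⟨v, hv, hv'⟩ := e
      exact ⟨v, fun _ => ⟨hv, hv'⟩⟩
    · exact ⟨1, fun e => absurd e hu⟩
  choose f hf using hex
  have hcube : ∀ u ∈ RM, f (f (f u)) = u := by
    intro u hu
    apply jh_inj h'
    have e1 := (hf u hu).1
    have e2 := (hf _ e1).1
    rw [(hf _ e2).2, (hf _ e1).2, (hf u hu).2]
    have e3 : b * (b * (b * jh h' u * b⁻¹) * b⁻¹) * b⁻¹ = b ^ 3 * jh h' u * (b ^ 3)⁻¹ := by
      simp only [pow_succ, pow_zero, one_mul, mul_inv_rev, mul_assoc]
    rw [e3, h2 _ (hmem u hu)]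
  let β : MulAut RM := autOf RM f (fun u => f (f u)) (fun x hx => (hf x hx).1)
    (fun x hx => (hf _ (hf x hx).1).1) hcube hcube (fun x hx y hy => by
      apply jh_inj h'
      rw [(hf _ (RM.mul_mem hx hy)).2, map_mul, map_mul, (hf x hx).2, (hf y hy).2]
      group)
  have hβf : ∀ u ∈ RM, fn β u = f u := fun u hu => fn_apply _ hu
  refine ⟨β, (mem_AF_FG h hS h').2 ⟨b, fun u hu => ?_⟩, ?_, ?_⟩
  · rw [hβf u hu]
    exact (hf u hu).2
  · have e1 : β ^ 3 = 1 := by
      apply eq_of_fn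
      intro u hu
      rw [← fn_iter β 3 hu, fn_apply (1 : MulAut RM) hu]
      show fn β (fn β (fn β u)) = u
      rw [hβf u hu, hβf _ (hf u hu).1, hβf _ (hf _ (hf u hu).1).1]
      exact hcube u hu
    exact Odd.of_dvd_nat (by decide : Odd 3) (orderOf_dvd_of_pow_eq_one e1)
  · intro e
    obtain ⟨x, hx, hne⟩ := h3
    rw [← hm] at hx
    obtain ⟨u, hu, rfl⟩ := hx
    apply hne
    rw [← (hf u hu).2, ← hβf u hu, e, fn_apply (1 : MulAut RM) hu]
    rfl

/-- the conclusion from the comparison -/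
theorem conclude [Finite S] (hSp : IsPGroup 2 S) {F : FusionSystem S} (hF : F.IsSaturated 2) (h : Rel r w d)
    (hS : (jh h).range = S) (hs : sV ∈ AF h F VM) {G : Type u} [Group G] [Finite G] {r' w' d' a : G}
    (hg : Grp r' w' d' a) (hR : (∃ β ∈ AF h F RM, Odd (orderOf β) ∧ β ≠ 1) ↔
      ∃ β ∈ AF h (FG h hS hg.rel) RM, Odd (orderOf β) ∧ β ≠ 1) :
    ∃ ι : S →* G, F.IsRealizedBy ι ∧ ∃ T : Sylow 2 G, (T : Subgroup G) = ι.range := by
  have hsat := FG_saturated h hS hg.rel hg.card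
  have hsG := sV_mem_FG h hS hg
  have h1 := comp h hS hSp hF hs hsG hR.1
  have h2 := comp h hS hSp hsat hsG hs hR.2
  obtain ⟨T, hT⟩ := sylow_range hg.rel hg.card
  refine ⟨iota h hS hg.rel, ⟨iota_inj h hS hg.rel, fun P hP φ hφ => ?_⟩, T, by rw [hT, iota_range]⟩
  rw [← (H781.pullback_isRealizedBy (iota h hS hg.rel) (iota_inj h hS hg.rel)).2 P hP φ hφ]
  exact ⟨fun e => h1 P e, fun e => h2 P e⟩

/-! ### transport along isomorphisms -/

section transport

variable {G H : Type*} [Group G] [Group H] {r w d a : G} (e : G ≃* H)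

theorem Rel.map (h : Rel r w d) : Rel (e r) (e w) (e d) := by
  refine ⟨?_, ?_, ?_, ?_, ?_, ?_, ?_⟩
  · rw [MulEquiv.orderOf_eq, h.or]
  · rw [← map_pow, h.ww, map_one]
  · rw [← map_pow, h.dd, map_one]
  · rw [← map_inv, ← map_mul, ← map_mul, h.wr, map_inv]
  · rw [← map_inv, ← map_mul, ← map_mul, h.dr, map_pow]
  · rw [← map_mul, h.wd, map_mul]
  · have h1 : Subgroup.closure ({e r, e w, e d} : Set H) = (Subgroup.closure {r, w, d}).map e.toMonoidHom := by
      rw [MonoidHom.map_closure, Set.image_insert_eq, Set.image_pair]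
      rfl
    rw [h1, Subgroup.card_map_of_injective e.injective]
    exact h.card

theorem Grp.map (h : Grp r w d a) : Grp (e r) (e w) (e d) (e a) := by
  refine ⟨h.rel.map e, ?_, ?_, ?_, ?_⟩
  · rw [← map_inv, ← map_mul, ← map_mul, h.ad]
  · rw [← map_inv, ← map_pow, ← map_mul, ← map_mul, h.ar]
  · rw [← map_inv, ← map_mul, ← map_mul, h.aw, map_mul, map_pow]
  · rw [← Nat.card_congr e.toEquiv]
    exact h.card

theorem RR_map : RR (e r) (e w) (e d) = (RR r w d).map e.toMonoidHom := by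
  unfold RR
  rw [MonoidHom.map_closure, Set.image_insert_eq, Set.image_pair]
  congr 2
  · exact (map_pow e r 2).symm
  · congr 1
    exact (map_mul e r w).symm

theorem mem_RR_map {x : G} : e x ∈ RR (e r) (e w) (e d) ↔ x ∈ RR r w d := by
  rw [RR_map]
  exact Subgroup.mem_map_iff_mem (f := e.toMonoidHom) e.injective

theorem NoThree.map (h : NoThree r w d) : NoThree (e r) (e w) (e d) := by
  intro g h1 h2 x hx
  obtain ⟨g, rfl⟩ := e.surjective g
  obtain ⟨x, rfl⟩ := e.surjective x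
  rw [mem_RR_map] at hx
  rw [← map_inv, ← map_mul, ← map_mul]
  congr 1
  refine h g (fun y hy => ?_) (fun y hy => ?_) x hx
  · have := h1 (e y) ((mem_RR_map e).2 hy)
    rwa [← map_inv, ← map_mul, ← map_mul, mem_RR_map] at this
  · have := h2 (e y) ((mem_RR_map e).2 hy)
    rw [← map_pow, ← map_inv, ← map_mul, ← map_mul] at this
    exact e.injective this

end transport

/-- **S5175, task Q2d**, from the two groups -/
theorem stHol_of (hA : StGrpA) (hB : StGrpB) : H756.HM.StHol.{u} := by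
  intro Ω _ S _ hSp F hF hcard r w d hcl hr hw hd hwr hdr hwd V hV hα
  have h : Rel r w d := ⟨hr, hw, hd, hwr, hdr, hwd, by rw [hcl]; exact hcard⟩
  have hS : (jh h).range = S := by rw [jh_range, hcl]
  rw [← VM_map h] at hV
  subst hV
  have hs := sV_mem h hα
  by_cases hR : ∃ β ∈ AF h F RM, Odd (orderOf β) ∧ β ≠ 1
  · obtain ⟨r', w', d', a, b, hg, h1, h2, x, hx, hx'⟩ := hB
    let G := ULift.{u} (MulAut (Matrix.ProjectiveSpecialLinearGroup (Fin 3) (ZMod 3)))
    let e : MulAut (Matrix.ProjectiveSpecialLinearGroup (Fin 3) (ZMod 3)) ≃* G := MulEquiv.ulift.symm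
    have hcG := hg.card
    have hfin : Finite (MulAut (Matrix.ProjectiveSpecialLinearGroup (Fin 3) (ZMod 3))) := by
      obtain ⟨m, hm, hc⟩ := hcG
      refine Nat.finite_of_card_ne_zero ?_
      rw [hc]
      intro h0
      have : m = 0 := by omega
      subst this
      exact absurd hm (by decide)
    have hfinG : Finite G := Finite.of_equiv _ e.toEquiv
    have hgG := hg.map e
    have h5 : ∃ β ∈ AF h (FG h hS hgG.rel) RM, Odd (orderOf β) ∧ β ≠ 1 := by
      refine three (b := e b) h hS hgG.rel (fun y hy => ?_) (fun y hy => ?_) ⟨e x, (mem_RR_map e).2 hx, fun h0 => hx' ?_⟩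
      · obtain ⟨y, rfl⟩ := e.surjective y
        rw [mem_RR_map] at hy
        rw [← map_inv, ← map_mul, ← map_mul, mem_RR_map]
        exact h1 y hy
      · obtain ⟨y, rfl⟩ := e.surjective y
        rw [mem_RR_map] at hy
        rw [← map_pow, ← map_inv, ← map_mul, ← map_mul, h2 y hy]
      · rw [← map_inv, ← map_mul, ← map_mul] at h0
        exact e.injective h0
    obtain ⟨ι, h3, h4⟩ := conclude hSp hF h hS hs hgG ⟨fun _ => h5, fun _ => hR⟩
    refine ⟨G, inferInstance, hfinG, ι, h3, h4, ?_⟩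
    exact Or.inr (Or.inr (Or.inr (Or.inl ⟨hcard, Or.inr ⟨e.symm⟩⟩)))
  · obtain ⟨r', w', d', a, hg, hn⟩ := hA
    let G := ULift.{u} (MulAut ↥(alternatingGroup (Fin 6)))
    let e : MulAut ↥(alternatingGroup (Fin 6)) ≃* G := MulEquiv.ulift.symm
    have hfin : Finite (MulAut ↥(alternatingGroup (Fin 6))) := by
      obtain ⟨m, hm, hc⟩ := hg.card
      refine Nat.finite_of_card_ne_zero ?_
      rw [hc]
      intro h0
      have : m = 0 := by omega
      subst this
      exact absurd hm (by decide)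
    have hfinG : Finite G := Finite.of_equiv _ e.toEquiv
    have hgG := hg.map e
    obtain ⟨ι, h3, h4⟩ := conclude hSp hF h hS hs hgG
      ⟨fun h0 => absurd h0 hR, fun h0 => absurd h0 (noThree_iff h hS hgG.rel (hn.map e))⟩
    refine ⟨G, inferInstance, hfinG, ι, h3, h4, ?_⟩
    exact Or.inr (Or.inr (Or.inr (Or.inl ⟨hcard, Or.inl ⟨e.symm⟩⟩)))

end Cfsg.Agent.H663.Hol
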