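import Mathlib

/-!
# The holomorph of the cyclic group of order 8 (S5175, task Q2d, helper663): a computable model
-/

set_option autoImplicit false

namespace Cfsg.Agent.H663.Hol

/-- `(i, a, b)` stands for `r ^ i * w ^ a * d ^ b` -/
@[ext] structure M where
  i : Fin 8
  a : Bool
  b : Bool
deriving DecidableEq, Fintype

namespace M

/-- the action of `w ^ a * d ^ b` on `⟨r⟩` -/
def sg : Bool → Bool → Fin 8
  | false, false => 1
  | true, false => 7
  | false, true => 5
  | true, true => 3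

instance : Mul M := ⟨fun x y => ⟨x.i + sg x.a x.b * y.i, xor x.a y.a, xor x.b y.b⟩⟩
instance : One M := ⟨⟨0, false, false⟩⟩
instance : Inv M := ⟨fun x => ⟨-(sg x.a x.b * x.i), x.a, x.b⟩⟩

theorem mul_def (x y : M) : x * y = ⟨x.i + sg x.a x.b * y.i, xor x.a y.a, xor x.b y.b⟩ := rfl

theorem one_def : (1 : M) = ⟨0, false, false⟩ := rfl

theorem inv_def (x : M) : x⁻¹ = ⟨-(sg x.a x.b * x.i), x.a, x.b⟩ := rfl

theorem sg_xor : ∀ a b a' b' : Bool, ∀ i : Fin 8, sg (xor a a') (xor b b') * i = sg a b * (sg a' b' * i) := by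
  decide

theorem sg_add : ∀ a b : Bool, ∀ i i' : Fin 8, sg a b * (i + i') = sg a b * i + sg a b * i' := by
  decide

instance : Group M :=
  Group.ofLeftAxioms
    (fun x y z => by
      simp only [mul_def, sg_xor, sg_add, add_assoc, Bool.xor_assoc])
    (by decide) (by decide)

/-- the generators -/
def r : M := ⟨1, false, false⟩
def w : M := ⟨0, true, false⟩
def d : M := ⟨0, false, true⟩

theorem card : Fintype.card M = 32 := by decide

example : r ^ 8 = 1 ∧ r ^ 4 ≠ 1 ∧ w ^ 2 = 1 ∧ d ^ 2 = 1 ∧ w * r * w⁻¹ = r⁻¹ ∧ d * r * d⁻¹ = r ^ 5 ∧ w * d = d * w := by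
  decide

end M

end Cfsg.Agent.H663.Hol
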