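import Cfsg.Agent.H663.Hol.Model

/-!
# Automorphisms of odd order of the centric subgroups of `Hol(C₈)` (helper663)
-/

set_option autoImplicit false
set_option maxRecDepth 20000

namespace Cfsg.Agent.H663.Hol

open M

/-- `f` is (on `K`) an automorphism of odd order of the subgroup `K` -/
structure Act (K : Subgroup M) (f : M → M) : Prop where
  map : ∀ x ∈ K, f x ∈ K
  mul : ∀ x ∈ K, ∀ y ∈ K, f (x * y) = f x * f y
  odd : ∃ m, Odd m ∧ ∀ x ∈ K, f^[m] x = x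

namespace Act

variable {K : Subgroup M} {f : M → M}

theorem one (h : Act K f) : f 1 = 1 := by
  have h1 := h.mul 1 K.one_mem 1 K.one_mem
  rw [mul_one] at h1
  exact (mul_eq_left.1 h1.symm)

theorem inv (h : Act K f) {x : M} (hx : x ∈ K) : f x⁻¹ = (f x)⁻¹ := by
  have h1 := h.mul x hx x⁻¹ (K.inv_mem hx)
  rw [mul_inv_cancel, h.one] at h1
  exact eq_inv_of_mul_eq_one_right h1.symm

theorem pow (h : Act K f) {x : M} (hx : x ∈ K) (n : ℕ) : f (x ^ n) = f x ^ n := by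
  induction n with
  | zero => rw [pow_zero, pow_zero, h.one]
  | succ n ih => rw [pow_succ, pow_succ, h.mul _ (K.pow_mem hx n) _ hx, ih]

theorem inj (h : Act K f) {x y : M} (hx : x ∈ K) (hy : y ∈ K) (e : f x = f y) : x = y := by
  obtain ⟨m, ⟨k, rfl⟩, hm⟩ := h.odd
  have h1 : f^[2 * k] (f x) = x := hm x hx
  have h2 : f^[2 * k] (f y) = y := hm y hy
  rw [← h1, ← h2, e]

theorem surj (h : Act K f) {y : M} (hy : y ∈ K) : ∃ x ∈ K, f x = y := by
  obtain ⟨m, ⟨k, rfl⟩, hm⟩ := h.odd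
  have hit : ∀ n, f^[n] y ∈ K := by
    intro n
    induction n with
    | zero => exact hy
    | succ n ih =>
      rw [Function.iterate_succ_apply']
      exact h.map _ ih
  refine ⟨f^[2 * k] y, hit _, ?_⟩
  exact (Function.iterate_succ_apply' f (2 * k) y).symm.trans (hm y hy)

theorem pair (h : Act K f) {x y : M} (hx : x ∈ K) (h1 : f x = x ∨ f x = y)
    (h2 : f y = x ∨ f y = y) : f x = x := by
  obtain ⟨m, ⟨k, rfl⟩, hm⟩ := h.odd
  rcases h1 with h1 | h1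
  · exact h1
  have h3 := hm x hx
  rcases h2 with h2 | h2
  · have h4 : ∀ n, f^[2 * n] x = x := by
      intro n
      induction n with
      | zero => rfl
      | succ n ih =>
        rw [show 2 * (n + 1) = 2 * n + 1 + 1 from rfl, Function.iterate_succ_apply,
          Function.iterate_succ_apply, h1, h2, ih]
    have h5 : f^[2 * k] (f x) = x := h3
    have h6 := (Function.Commute.iterate_self f (2 * k)).eq x
    rw [h4] at h6
    exact h6.symm.trans h5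
  · have h4 : ∀ n, f^[n + 1] x = y := by
      intro n
      induction n with
      | zero => exact h1
      | succ n ih => rw [Function.iterate_succ_apply', ih, h2]
    rw [h4] at h3
    rw [h1, h3]

theorem pow8 : ∀ x : M, x ^ 8 = 1 := by decide

theorem mulfix (h : Act K f) {x k : M} (hx : x ∈ K) (hk : k ∈ K) (hf : f k = k) (e : f x = x * k) :
    f x = x := by
  obtain ⟨m, hodd, hm⟩ := h.odd
  have h1 : ∀ n, f^[n] x = x * k ^ n := by
    intro n
    induction n with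
    | zero => simp
    | succ n ih =>
      rw [Function.iterate_succ_apply', ih, h.mul x hx _ (K.pow_mem hk n), h.pow hk, hf, e, pow_succ',
        mul_assoc]
  have h2 := hm x hx
  rw [h1] at h2
  have h3 : k ^ m = 1 := mul_eq_left.1 h2
  have h4 : orderOf k ∣ m := orderOf_dvd_of_pow_eq_one h3
  have h5 : orderOf k ∣ 2 ^ 3 := orderOf_dvd_of_pow_eq_one (pow8 k)
  have h6 : Nat.Coprime m (2 ^ 3) := by
    exact Nat.Coprime.pow_right 3 (Nat.coprime_two_right.2 hodd)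
  have h7 : orderOf k = 1 := Nat.eq_one_of_dvd_coprimes h6 h4 h5
  rw [orderOf_eq_one_iff] at h7
  rw [e, h7, mul_one]

/-- the version of `mulfix` with `k = x⁻¹ f(x)` -/
theorem fix' (h : Act K f) {x : M} (hx : x ∈ K) (hf : f (x⁻¹ * f x) = x⁻¹ * f x) : f x = x :=
  h.mulfix hx (K.mul_mem (K.inv_mem hx) (h.map x hx)) hf (by group)

theorem ne_one (h : Act K f) {x : M} (hx : x ∈ K) (h1 : x ≠ 1) : f x ≠ 1 := fun e =>
  h1 (h.inj hx K.one_mem (by rw [e, h.one]))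

/-! ### the case of an element of order 8 -/

theorem f1 : ∀ x y : M, x ^ 4 ≠ 1 → y ^ 4 ≠ 1 → y ^ 2 = x ^ 2 ∨ y ^ 2 = (x ^ 2)⁻¹ := by decide
theorem f2 : ∀ x y : M, x ^ 4 ≠ 1 → (y * x ^ 2 = x ^ 2 * y ↔ y.a = false) := by decide
theorem f3 : ∀ x : M, x ^ 4 ≠ 1 → x ^ 4 = r ^ 4 := by decide
theorem f4 : ∀ y z : M, y.a = false → z.a = false → y ^ 2 = 1 → z ^ 2 = 1 → y ≠ 1 → z ≠ 1 →
    y ≠ r ^ 4 → z ≠ r ^ 4 → z = y ∨ z = y * r ^ 4 := by decide
theorem f5 : ∀ x y : M, x ^ 4 ≠ 1 → y.a = false → y ^ 4 = 1 → y ^ 2 = 1 ∨ (y * x ^ 2) ^ 2 = 1 := by decide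
theorem f6 : ∀ y z : M, y ^ 4 ≠ 1 → z ^ 4 ≠ 1 → (y⁻¹ * z).a = false ∧ (y⁻¹ * z) ^ 4 = 1 := by decide
theorem f7 : ∀ y z : M, y.a = true → z.a = true → (y⁻¹ * z).a = false := by decide
theorem f8 : ∀ y z : M, y.a = false → z.a = false → (y * z).a = false := by decide
theorem r42 : (r ^ 4 : M) * r ^ 4 = 1 := by decide
theorem x24 (x : M) : (x ^ 2) ^ 2 = x ^ 4 := by rw [← pow_mul]

theorem inv_comm (h : Act K f) {x y : M} (hx : x ∈ K) (hy : y ∈ K) (hfy : f y = y) :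
    f x * y = y * f x ↔ x * y = y * x := by
  constructor
  · intro e
    apply h.inj (K.mul_mem hx hy) (K.mul_mem hy hx)
    rw [h.mul x hx y hy, h.mul y hy x hx, hfy, e]
  · intro e
    have h1 := congrArg f e
    rwa [h.mul x hx y hy, h.mul y hy x hx, hfy] at h1

theorem oct (h : Act K f) {x : M} (hx : x ∈ K) (h4 : x ^ 4 ≠ 1) : ∀ y ∈ K, f y = y := by
  have hf4 : ∀ y ∈ K, y ^ 4 ≠ 1 → f y ^ 4 ≠ 1 := by
    intro y hy hy4
    rw [← h.pow hy]
    exact h.ne_one (K.pow_mem hy 4) hy4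
  have hu : x ^ 2 ∈ K := K.pow_mem hx 2
  have hfu : f (x ^ 2) = x ^ 2 := by
    have h1 : f (x ^ 2) = x ^ 2 ∨ f (x ^ 2) = (x ^ 2)⁻¹ := by
      rw [h.pow hx]
      exact f1 x (f x) h4 (hf4 x hx h4)
    refine h.pair (y := (x ^ 2)⁻¹) hu h1 ?_
    rw [h.inv hu]
    rcases h1 with h1 | h1
    · right
      rw [h1]
    · left
      rw [h1, inv_inv]
  have hz : (r ^ 4 : M) ∈ K := f3 x h4 ▸ K.pow_mem hx 4
  have hfz : f (r ^ 4) = r ^ 4 := by
    rw [← f3 x h4, ← x24, h.pow hu, hfu]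
  have ha : ∀ y ∈ K, (f y).a = false ↔ y.a = false := by
    intro y hy
    rw [← f2 x (f y) h4, ← f2 x y h4]
    exact h.inv_comm hy hu hfu
  have s2 : ∀ y ∈ K, y.a = false → y ^ 2 = 1 → f y = y := by
    intro y hy hya hy2
    by_cases e1 : y = 1
    · rw [e1, h.one]
    by_cases e2 : y = r ^ 4
    · rw [e2, hfz]
    have h1 : f y = y ∨ f y = y * r ^ 4 := by
      refine f4 y (f y) hya ((ha y hy).2 hya) hy2 (by rw [← h.pow hy, hy2, h.one]) e1 (h.ne_one hy e1)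
        e2 (fun e => e2 ?_)
      exact h.inj hy hz (by rw [e, hfz])
    refine h.pair (y := y * r ^ 4) hy h1 ?_
    rw [h.mul y hy _ hz, hfz]
    rcases h1 with h1 | h1
    · right
      rw [h1]
    · left
      rw [h1, mul_assoc, r42, mul_one]
  have s3 : ∀ y ∈ K, y.a = false → y ^ 4 = 1 → f y = y := by
    intro y hy hya hy4
    rcases f5 x y h4 hya hy4 with h1 | h1
    · exact s2 y hy hya h1
    · have hua : (x ^ 2 : M).a = false := (f2 x _ h4).1 rfl
      have h2 := s2 (y * x ^ 2) (K.mul_mem hy hu) (f8 _ _ hya hua) h1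
      rw [h.mul y hy _ hu, hfu] at h2
      exact mul_right_cancel h2
  have s4 : ∀ y ∈ K, y.a = false → f y = y := by
    intro y hy hya
    by_cases hy4 : y ^ 4 = 1
    · exact s3 y hy hya hy4
    · obtain ⟨h1, h2⟩ := f6 y (f y) hy4 (hf4 y hy hy4)
      exact h.fix' hy (s3 _ (K.mul_mem (K.inv_mem hy) (h.map y hy)) h1 h2)
  intro y hy
  cases hya : y.a with
  | false => exact s4 y hy hya
  | true =>
    have hfa : (f y).a = true := by
      cases hfa : (f y).a with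
      | false =>
        rw [(ha y hy).1 hfa] at hya
        exact absurd hya (by decide)
      | true => rfl
    exact h.fix' hy (s4 _ (K.mul_mem (K.inv_mem hy) (h.map y hy)) (f7 _ _ hya hfa))

/-! ### exponent 4 -/

theorem g1 : ∀ x : M, x ^ 4 = 1 → x ^ 2 = 1 ∨ x ^ 2 = r ^ 4 := by decide
theorem g2 : ∀ x : M, x * r ^ 4 = r ^ 4 * x := by decide
theorem g3 : ∀ x : M, x.a = false → x ^ 4 = 1 → x * r ^ 2 = r ^ 2 * x ∧ x * d = d * x := by decide

/-- some element of order 4: `r ^ 4` is fixed -/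
theorem z_fixed (h : Act K f) (h8 : ∀ x ∈ K, x ^ 4 = 1) {x : M} (hx : x ∈ K) (hx2 : x ^ 2 ≠ 1) :
    r ^ 4 ∈ K ∧ f (r ^ 4) = r ^ 4 := by
  have h1 := (g1 x (h8 x hx)).resolve_left hx2
  have h2 : f x ^ 2 ≠ 1 := by
    rw [← h.pow hx]
    exact h.ne_one (K.pow_mem hx 2) hx2
  have h3 := (g1 (f x) (h8 _ (h.map x hx))).resolve_left h2
  refine ⟨h1 ▸ K.pow_mem hx 2, ?_⟩
  rw [← h1, h.pow hx, h3, h1]

/-- an involution which can only move to its product with `r ^ 4` is fixed -/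
theorem inv_fixed (h : Act K f) (hz : r ^ 4 ∈ K) (hfz : f (r ^ 4) = r ^ 4) {y : M} (hy : y ∈ K)
    (h1 : f y ≠ 1 → f y ≠ r ^ 4 → f y = y ∨ f y = y * r ^ 4) (hy1 : y ≠ 1) : f y = y := by
  by_cases e2 : y = r ^ 4
  · rw [e2, hfz]
  have h1 := h1 (h.ne_one hy hy1) (fun e => e2 (h.inj hy hz (by rw [e, hfz])))
  refine h.pair (y := y * r ^ 4) hy h1 ?_
  rw [h.mul y hy _ hz, hfz]
  rcases h1 with h1 | h1
  · right
    rw [h1]
  · left
    rw [h1, mul_assoc, r42, mul_one]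

theorem comm_of (h : Act K f) {y : M} (hy : ∀ x ∈ K, x * y = y * x) (hyK : y ∈ K) :
    ∀ x ∈ K, x * f y = f y * x := by
  intro x hx
  obtain ⟨x', hx', rfl⟩ := h.surj hx
  rw [← h.mul x' hx' y hyK, hy x' hx', h.mul y hyK x' hx']

theorem a1 : ∀ y : M, y.a = false → y ^ 4 = 1 → y = r ^ 2 ∨ y = (r ^ 2)⁻¹ ∨ y = 1 ∨ y = r ^ 4 ∨ y = d ∨ y = d * r ^ 4 ∨
    y = r ^ 2 * d ∨ y = (r ^ 2)⁻¹ * d := by decide
theorem a2 : ∀ y : M, y.a = false → y ^ 4 = 1 → y ^ 2 = 1 → y = 1 ∨ y = r ^ 4 ∨ y = d ∨ y = d * r ^ 4 := by decide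

/-- `K = ⟨r², d⟩` -/
theorem caseA1 (h : Act K f) (h8 : ∀ x ∈ K, x ^ 4 = 1) (ha : ∀ x ∈ K, x.a = false) (hr : r ^ 2 ∈ K)
    (hd : d ∈ K) : ∀ y ∈ K, f y = y := by
  obtain ⟨hz, hfz⟩ := h.z_fixed h8 hr (by decide)
  have hfd : f d = d := by
    refine h.inv_fixed hz hfz hd (fun e1 e2 => ?_) (by decide)
    have h2 : f d ^ 2 = 1 := by rw [← h.pow hd, show (d ^ 2 : M) = 1 by decide, h.one]
    rcases a2 _ (ha _ (h.map d hd)) (h8 _ (h.map d hd)) h2 with e | e | e | e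
    · exact absurd e e1
    · exact absurd e e2
    · exact Or.inl e
    · exact Or.inr e
  have hfdz : f (d * r ^ 4) = d * r ^ 4 := by rw [h.mul _ hd _ hz, hfd, hfz]
  have hfr : f (r ^ 2) = r ^ 2 := by
    have hk : (r ^ 2)⁻¹ * f (r ^ 2) ∈ K := K.mul_mem (K.inv_mem hr) (h.map _ hr)
    have h2 : f (r ^ 2) ^ 2 = r ^ 4 := by
      rw [← h.pow hr, show ((r ^ 2) ^ 2 : M) = r ^ 4 by decide, hfz]
    have h3 : ∀ y : M, y.a = false → y ^ 2 = r ^ 4 → ((r ^ 2)⁻¹ * y) ^ 2 = 1 := by decide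
    refine h.fix' hr ?_
    rcases a2 _ (ha _ hk) (h8 _ hk) (h3 _ (ha _ (h.map _ hr)) h2) with e | e | e | e
    · rw [e, h.one]
    · rw [e, hfz]
    · rw [e, hfd]
    · rw [e, hfdz]
  intro y hy
  rcases a1 y (ha y hy) (h8 y hy) with e | e | e | e | e | e | e | e
  · rw [e, hfr]
  · rw [e, h.inv hr, hfr]
  · rw [e, h.one]
  · rw [e, hfz]
  · rw [e, hfd]
  · rw [e, hfdz]
  · rw [e, h.mul _ hr _ hd, hfr, hfd]
  · rw [e, h.mul _ (K.inv_mem hr) _ hd, h.inv hr, hfr, hfd]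

theorem t1 : ∀ y : M, y.a = true → y * d = d * y → ∀ x : M, (x.a = false → x ^ 4 = 1) →
    (x.a = true → (y⁻¹ * x) ^ 4 = 1) → x * d = d * x := by decide

/-- `K = ⟨r², d, w⟩` -/
theorem caseT (h : Act K f) (h8 : ∀ x ∈ K, x ^ 4 = 1) {y : M} (hy : y ∈ K) (hya : y.a = true)
    (hyd : y * d = d * y) (hr : r ^ 2 ∈ K) (hd : d ∈ K) : ∀ y ∈ K, f y = y := by
  obtain ⟨hz, hfz⟩ := h.z_fixed h8 hr (by decide)
  have hcd : ∀ x ∈ K, x * d = d * x := fun x hx => t1 y hya hyd x (fun _ => h8 x hx)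
    (fun _ => h8 _ (K.mul_mem (K.inv_mem hy) hx))
  have hfd : f d = d := by
    refine h.inv_fixed hz hfz hd (fun e1 e2 => ?_) (by decide)
    have h2 : f d ^ 2 = 1 := by rw [← h.pow hd, show (d ^ 2 : M) = 1 by decide, h.one]
    have h3 := h.comm_of hcd hd
    have h4 : ∀ t : M, r ^ 2 * t = t * r ^ 2 → t.a = false := by decide
    rcases a2 _ (h4 _ (h3 _ hr)) (h8 _ (h.map d hd)) h2 with e | e | e | e
    · exact absurd e e1
    · exact absurd e e2
    · exact Or.inl e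
    · exact Or.inr e
  have hfdz : f (d * r ^ 4) = d * r ^ 4 := by rw [h.mul _ hd _ hz, hfd, hfz]
  have hfr : f (r ^ 2) = r ^ 2 := by
    have hk : (r ^ 2)⁻¹ * f (r ^ 2) ∈ K := K.mul_mem (K.inv_mem hr) (h.map _ hr)
    have h2 : f (r ^ 2) ^ 2 = r ^ 4 := by
      rw [← h.pow hr, show ((r ^ 2) ^ 2 : M) = r ^ 4 by decide, hfz]
    have h3 : ∀ y : M, y * d = d * y → y ^ 2 = r ^ 4 → ((r ^ 2)⁻¹ * y).a = false ∧ ((r ^ 2)⁻¹ * y) ^ 2 = 1 := by
      decide
    obtain ⟨h4, h5⟩ := h3 _ (hcd _ (h.map _ hr)) h2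
    refine h.fix' hr ?_
    rcases a2 _ h4 (h8 _ hk) h5 with e | e | e | e
    · rw [e, h.one]
    · rw [e, hfz]
    · rw [e, hfd]
    · rw [e, hfdz]
  have hA : ∀ y ∈ K, y.a = false → f y = y := by
    intro y hy hya
    rcases a1 y hya (h8 y hy) with e | e | e | e | e | e | e | e
    · rw [e, hfr]
    · rw [e, h.inv hr, hfr]
    · rw [e, h.one]
    · rw [e, hfz]
    · rw [e, hfd]
    · rw [e, hfdz]
    · rw [e, h.mul _ hr _ hd, hfr, hfd]
    · rw [e, h.mul _ (K.inv_mem hr) _ hd, h.inv hr, hfr, hfd]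
  intro x hx
  cases hxa : x.a with
  | false => exact hA x hx hxa
  | true =>
    have h5 : ∀ t : M, t * r ^ 2 = r ^ 2 * t ↔ t.a = false := by decide
    have hfa : (f x).a = true := by
      cases hfa : (f x).a with
      | false =>
        have h6 := (h.inv_comm hx hr hfr).1 ((h5 _).2 hfa)
        rw [(h5 x).1 h6] at hxa
        exact absurd hxa (by decide)
      | true => rfl
    exact h.fix' hx (hA _ (K.mul_mem (K.inv_mem hx) (h.map x hx)) (f7 _ _ hxa hfa))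

theorem b1 : ∀ x : M, x.a = false → x ^ 4 = 1 → x * (r ^ 2 * d) = (r ^ 2 * d) * x := by decide

/-- `K = ⟨r² d, y⟩` with `y` an involution, `y = r ^ i w d ^ j`, `i` odd -/
theorem caseA2 (h : Act K f) (h8 : ∀ x ∈ K, x ^ 4 = 1) {y : M} (hy : y ∈ K) (hya : y.a = true)
    (hyd : y * (r ^ 2 * d) = (r ^ 2 * d) * y) (hy2 : y ^ 2 = 1) (hr : r ^ 2 ∉ K) (hc : r ^ 2 * d ∈ K) :
    ∀ y ∈ K, f y = y := by
  obtain ⟨hz, hfz⟩ := h.z_fixed h8 hc (by decide)
  have h1 : ∀ x : M, x.a = false → x ^ 4 = 1 → x * (r ^ 2 * d) ≠ r ^ 2 → x * (r ^ 2 * d) ≠ (r ^ 2)⁻¹ →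
      x ≠ r ^ 2 → x ≠ (r ^ 2)⁻¹ → x = 1 ∨ x = r ^ 4 ∨ x = r ^ 2 * d ∨ x = (r ^ 2 * d)⁻¹ := by decide
  have hr' : (r ^ 2)⁻¹ ∉ K := fun e => hr (by simpa using K.inv_mem e)
  have hA : ∀ x ∈ K, x.a = false → x = 1 ∨ x = r ^ 4 ∨ x = r ^ 2 * d ∨ x = (r ^ 2 * d)⁻¹ := by
    intro x hx hxa
    refine h1 x hxa (h8 x hx) (fun e => hr ?_) (fun e => hr' ?_) (fun e => hr (e ▸ hx)) (fun e => hr' (e ▸ hx))
    · rw [← e]
      exact K.mul_mem hx hc
    · rw [← e]
      exact K.mul_mem hx hc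
  have hB : ∀ x ∈ K, x.a = true → x = y ∨ x = y * r ^ 4 ∨ x = y * (r ^ 2 * d) ∨ x = y * (r ^ 2 * d)⁻¹ := by
    intro x hx hxa
    rcases hA _ (K.mul_mem (K.inv_mem hy) hx) (f7 y x hya hxa) with e | e | e | e
    · left
      exact (inv_mul_eq_one.1 e).symm
    · right; left
      exact inv_mul_eq_iff_eq_mul.1 e
    · right; right; left
      exact inv_mul_eq_iff_eq_mul.1 e
    · right; right; right
      exact inv_mul_eq_iff_eq_mul.1 e
  have h4 : ∀ t : M, t.a = true → t * (r ^ 2 * d) = (r ^ 2 * d) * t → t ^ 2 = 1 →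
      (t * (r ^ 2 * d)) ^ 2 ≠ 1 ∧ (t * (r ^ 2 * d)⁻¹) ^ 2 ≠ 1 := by decide
  obtain ⟨h5, h6⟩ := h4 y hya hyd hy2
  have hfy : f y = y := by
    refine h.inv_fixed hz hfz hy (fun e1 e2 => ?_) (fun e => ?_)
    · have h2 : f y ^ 2 = 1 := by rw [← h.pow hy, hy2, h.one]
      cases hfa : (f y).a with
      | false =>
        rcases hA _ (h.map y hy) hfa with e | e | e | e
        · exact absurd e e1
        · exact absurd e e2
        · rw [e] at h2
          exact absurd h2 (by decide)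
        · rw [e] at h2
          exact absurd h2 (by decide)
      | true =>
        rcases hB _ (h.map y hy) hfa with e | e | e | e
        · exact Or.inl e
        · exact Or.inr e
        · rw [e] at h2
          exact absurd h2 h5
        · rw [e] at h2
          exact absurd h2 h6
    · rw [e] at hya
      exact absurd hya (by decide)
  have hyz : y * r ^ 4 ∈ K := K.mul_mem hy hz
  have hfyz : f (y * r ^ 4) = y * r ^ 4 := by rw [h.mul _ hy _ hz, hfy, hfz]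
  have hfc : f (r ^ 2 * d) = r ^ 2 * d := by
    have h2 : f (r ^ 2 * d) ^ 2 = r ^ 4 := by
      rw [← h.pow hc, show ((r ^ 2 * d) ^ 2 : M) = r ^ 4 by decide, hfz]
    have hk : (r ^ 2 * d)⁻¹ * f (r ^ 2 * d) ∈ K := K.mul_mem (K.inv_mem hc) (h.map _ hc)
    refine h.fix' hc ?_
    have h3 : ∀ t : M, t * (r ^ 2 * d) = (r ^ 2 * d) * t → t ^ 2 = r ^ 4 → ((r ^ 2 * d)⁻¹ * t) ^ 2 = 1 := by
      decide
    have hcc : ∀ x ∈ K, x * (r ^ 2 * d) = (r ^ 2 * d) * x := by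
      intro x hx
      cases hxa : x.a with
      | false => exact b1 x hxa (h8 x hx)
      | true =>
        have h7 : ∀ t : M, t * (r ^ 2 * d) = (r ^ 2 * d) * t → (t * r ^ 4) * (r ^ 2 * d) = (r ^ 2 * d) * (t * r ^ 4) ∧
          (t * (r ^ 2 * d)) * (r ^ 2 * d) = (r ^ 2 * d) * (t * (r ^ 2 * d)) ∧
          (t * (r ^ 2 * d)⁻¹) * (r ^ 2 * d) = (r ^ 2 * d) * (t * (r ^ 2 * d)⁻¹) := by decide
        obtain ⟨h8, h9, h10⟩ := h7 y hyd
        rcases hB x hx hxa with e | e | e | e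
        · rw [e, hyd]
        · rw [e, h8]
        · rw [e, h9]
        · rw [e, h10]
    have h11 := h3 _ (hcc _ (h.map _ hc)) h2
    cases hfa : ((r ^ 2 * d)⁻¹ * f (r ^ 2 * d)).a with
    | false =>
      rcases hA _ hk hfa with e | e | e | e
      · rw [e, h.one]
      · rw [e, hfz]
      · rw [e] at h11
        exact absurd h11 (by decide)
      · rw [e] at h11
        exact absurd h11 (by decide)
    | true =>
      rcases hB _ hk hfa with e | e | e | e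
      · rw [e, hfy]
      · rw [e, hfyz]
      · rw [e] at h11
        exact absurd h11 h5
      · rw [e] at h11
        exact absurd h11 h6
  intro x hx
  cases hxa : x.a with
  | false =>
    rcases hA x hx hxa with e | e | e | e
    · rw [e, h.one]
    · rw [e, hfz]
    · rw [e, hfc]
    · rw [e, h.inv hc, hfc]
  | true =>
    rcases hB x hx hxa with e | e | e | e
    · rw [e, hfy]
    · rw [e, hfyz]
    · rw [e, h.mul _ hy _ hc, hfy, hfc]
    · rw [e, h.mul _ hy _ (K.inv_mem hc), h.inv hc, hfy, hfc]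

end Act

end Cfsg.Agent.H663.Hol
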