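import Cfsg.Agent.H663.Hol.Comp
import Cfsg.Agent.H781.Realized
import Cfsg.Agent.H756.HM.Defs

/-!
# The fusion system of the group on `Hol(C₈)` (helper663)
-/

set_option autoImplicit false
set_option maxRecDepth 20000

namespace Cfsg.Agent.H663.Hol

open Cfsg Cfsg.FusionSystem Cfsg.Agent.H802

variable {Ω : Type*} [Group Ω] {S : Subgroup Ω} {r w d : Ω} {G : Type*} [Group G] {r' w' d' a : G}

/-- `S ≃ M` -/
noncomputable def eS (h : Rel r w d) (hS : (jh h).range = S) : S ≃* M :=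
  ((MonoidHom.ofInjective (jh_inj h)).trans (MulEquiv.subgroupCongr hS)).symm

theorem eS_apply (h : Rel r w d) (hS : (jh h).range = S) (x : M) (hx : jh h x ∈ S) : eS h hS ⟨jh h x, hx⟩ = x := by
  rw [eS, MulEquiv.symm_apply_eq]
  rfl

/-- the embedding of `S` in `G` -/
noncomputable def iota (h : Rel r w d) (hS : (jh h).range = S) (h' : Rel r' w' d') : S →* G :=
  (jh h').comp (eS h hS).toMonoidHom

theorem iota_apply (h : Rel r w d) (hS : (jh h).range = S) (h' : Rel r' w' d') (x : M) (hx : jh h x ∈ S) :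
    iota h hS h' ⟨jh h x, hx⟩ = jh h' x := by
  show jh h' (eS h hS ⟨jh h x, hx⟩) = _
  rw [eS_apply]

theorem iota_inj (h : Rel r w d) (hS : (jh h).range = S) (h' : Rel r' w' d') :
    Function.Injective (iota h hS h') := (jh_inj h').comp (eS h hS).injective

theorem iota_range (h : Rel r w d) (hS : (jh h).range = S) (h' : Rel r' w' d') :
    (iota h hS h').range = (jh h').range := by
  ext y
  constructor
  · rintro ⟨x, rfl⟩
    exact ⟨_, rfl⟩
  · rintro ⟨x, rfl⟩
    exact ⟨(eS h hS).symm x, by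
      show jh h' (eS h hS ((eS h hS).symm x)) = _
      rw [MulEquiv.apply_symm_apply]⟩

/-- the fusion system of `G` -/
noncomputable abbrev FG (h : Rel r w d) (hS : (jh h).range = S) (h' : Rel r' w' d') : FusionSystem S :=
  H781.pullback (iota h hS h') (iota_inj h hS h')

theorem sylow_range [Finite G] (h' : Rel r' w' d') (hc : ∃ m : ℕ, Odd m ∧ Nat.card G = 32 * m) :
    ∃ T : Sylow 2 G, (T : Subgroup G) = (jh h').range := by
  obtain ⟨m, hm, hG⟩ := hc
  have : Fact (Nat.Prime 2) := ⟨Nat.prime_two⟩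
  have h1 : Nat.card (jh h').range = 2 ^ (Nat.card G).factorization 2 := by
    have e1 : Nat.card (jh h').range = 32 := by rw [jh_range]; exact h'.card
    have hm0 : m ≠ 0 := by rintro rfl; exact absurd hm (by decide)
    have e2 : (Nat.card G).factorization 2 = 5 := by
      rw [hG, Nat.factorization_mul (by norm_num) hm0, show (32 : ℕ) = 2 ^ 5 by norm_num,
        Nat.prime_two.factorization_pow]
      have e3 : m.factorization 2 = 0 := Nat.factorization_eq_zero_of_not_dvd fun h =>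
        (Nat.not_even_iff_odd.2 hm) (even_iff_two_dvd.2 h)
      simp [e3]
    rw [e1, e2]
    norm_num
  exact ⟨Sylow.ofCard _ h1, rfl⟩

theorem FG_saturated [Finite G] (h : Rel r w d) (hS : (jh h).range = S) (h' : Rel r' w' d')
    (hc : ∃ m : ℕ, Odd m ∧ Nat.card G = 32 * m) : (FG h hS h').IsSaturated 2 := by
  have : Fact (Nat.Prime 2) := ⟨Nat.prime_two⟩
  obtain ⟨T, hT⟩ := sylow_range h' hc
  exact H781.isSaturated_of_isRealizedBy (H781.pullback_isRealizedBy _ _) T (by rw [hT, iota_range])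

theorem mem_AF_FG (h : Rel r w d) (hS : (jh h).range = S) (h' : Rel r' w' d') {K : Subgroup M} {β : MulAut K} :
    β ∈ AF h (FG h hS h') K ↔ ∃ g : G, ∀ u ∈ K, jh h' (fn β u) = g * jh h' u * g⁻¹ := by
  have hm : ∀ x : M, jh h x ∈ S := fun x => by rw [← hS]; exact ⟨x, rfl⟩
  rw [mem_AF, mem_autGroup_iff _ (map_le h hS K)]
  rw [(H781.pullback_isRealizedBy (iota h hS h') (iota_inj h hS h')).2 _ (map_le h hS K) _
    (fun x => map_le h hS K (MulAut.congr (eK h K) β x).2)]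
  constructor
  · rintro ⟨g, hg⟩
    refine ⟨g, fun u hu => ?_⟩
    have h1 := hg (eK h K ⟨u, hu⟩)
    have h2 : (⟨((K.map (jh h)).subtype.comp (MulAut.congr (eK h K) β).toMonoidHom) (eK h K ⟨u, hu⟩),
        map_le h hS K (MulAut.congr (eK h K) β (eK h K ⟨u, hu⟩)).2⟩ : S) = ⟨jh h (fn β u), hm _⟩ :=
      Subtype.ext (by
        rw [fn_apply β hu]
        exact congr_coe h β ⟨u, hu⟩)
    rw [h2, iota_apply] at h1
    rw [h1]
    congr 2
    exact iota_apply h hS h' u (hm u)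
  · rintro ⟨g, hg⟩
    refine ⟨g, fun x => ?_⟩
    obtain ⟨⟨u, hu⟩, rfl⟩ := (eK h K).surjective x
    have h2 : (⟨((K.map (jh h)).subtype.comp (MulAut.congr (eK h K) β).toMonoidHom) (eK h K ⟨u, hu⟩),
        map_le h hS K (MulAut.congr (eK h K) β (eK h K ⟨u, hu⟩)).2⟩ : S) = ⟨jh h (fn β u), hm _⟩ :=
      Subtype.ext (by
        rw [fn_apply β hu]
        exact congr_coe h β ⟨u, hu⟩)
    rw [h2, iota_apply, hg u hu]
    congr 2
    exact (iota_apply h hS h' u (hm u)).symm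

theorem sV_mem_FG (h : Rel r w d) (hS : (jh h).range = S) (hg : Grp r' w' d' a) :
    sV ∈ AF h (FG h hS hg.rel) VM := by
  rw [mem_AF_FG]
  refine ⟨a, fun u hu => ?_⟩
  have e1 : jh hg.rel (M.r ^ 4) = r' ^ 4 := by rw [map_pow, jh_r]
  have h4 : ∀ x ∈ VM, ∃ i j k : Fin 2, x = (M.r ^ 4) ^ (i : ℕ) * M.w ^ (j : ℕ) * M.d ^ (k : ℕ) ∧
      sf x = M.w ^ (i : ℕ) * (M.r ^ 4 * M.w) ^ (j : ℕ) * M.d ^ (k : ℕ) := by decide
  obtain ⟨i, j, k, hu1, hu2⟩ := h4 u hu
  rw [fn_sV hu, hu2, hu1]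
  simp only [map_mul, map_pow, jh_r, jh_w, jh_d]
  have hr := hg.ar
  have hw := hg.aw
  have hd := hg.ad
  have c1 : ∀ x y : G, a * (x * y) * a⁻¹ = (a * x * a⁻¹) * (a * y * a⁻¹) := fun x y => by group
  have c2 : ∀ (x : G) (n : ℕ), a * x ^ n * a⁻¹ = (a * x * a⁻¹) ^ n := fun x n => conj_pow.symm
  rw [c1, c1, c2 (r' ^ 4) i, c2 w' j, c2 d' k, hr, hw, hd]

end Cfsg.Agent.H663.Hol
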