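import Cfsg.Agent.H663.Hol.Main
import Cfsg.Agent.H813.Hol.GrpA
import Cfsg.Agent.H984.Hol.GrpB

/-!
# S5175, task Q2d: `StHol` (helper663; groups by helper813 and helper984)
-/

set_option autoImplicit false

namespace Cfsg.Agent.H663.Hol

universe u

theorem stHol : H756.HM.StHol.{u} := stHol_of H813.Hol.grpA H984.Hol.grpB

end Cfsg.Agent.H663.Hol
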